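import Mathlib
import Cfsg.Agent.Lib.Coprime.SylowCount
import Cfsg.Agent.Lib.Core.Frattini
import Cfsg.Agent.Lib.Core.PPrimeCore

/-! Fixed point ratios for elements of prime order generating a solvable group as a class. -/

set_option autoImplicit false

namespace Cfsg.Agent.Flav

open Subgroup Cfsg.Agent.Core

universe u

section Gen

variable {G G' : Type*} [Group G] [Group G']

/-- The conjugates of `x` generate the group. -/
def Gen (x : G) : Prop := ∀ N : Subgroup G, N.Normal → x ∈ N → N = ⊤

theorem Gen.map {x : G} (h : Gen x) (f : G →* G') (hf : Function.Surjective f) : Gen (f x) := by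
  intro N hN hx
  have := h (N.comap f) (hN.comap f) hx
  rw [← map_comap_eq_self_of_surjective hf N, this, map_top_of_surjective f hf]

theorem Gen.conj {x : G} (h : Gen x) (g : G) : Gen (g⁻¹ * x * g) := by
  intro N hN hx
  refine h N hN ?_
  have := hN.conj_mem _ hx g
  simpa [mul_assoc] using this

theorem Gen.le_center {x : G} (h : Gen x) {E : Subgroup G} [E.Normal]
    (hx : E ≤ centralizer (zpowers x : Set G)) : E ≤ center G := by
  have h1 : x ∈ centralizer (E : Set G) := le_centralizer_iff.1 hx (mem_zpowers x)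
  have h2 := h _ inferInstance h1
  intro e he
  rw [mem_center_iff]
  intro g
  have : g ∈ centralizer (E : Set G) := h2 ▸ mem_top g
  exact (this e he).symm

theorem gen_of_normalClosure {x : G} (h : normalClosure (zpowers x : Set G) = ⊤) : Gen x := by
  intro N hN hx
  rw [eq_top_iff, ← h]
  exact normalClosure_le_normal (zpowers_le.2 hx)

/-- The index of the centralizer of an element of order `p` in a normalized `q`-group. -/
theorem relIndex_dvd_or [Finite G] {p q : ℕ} [hp : Fact p.Prime] [hq : Fact q.Prime]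
    {E : Subgroup G} (hE : IsPGroup q E) {y : G} (hy : y ^ p = 1)
    (hn : y ∈ normalizer (E : Set G)) :
    ∃ j, (centralizer (zpowers y : Set G)).relIndex E = q ^ j ∧
      (j = 0 ∨ p ∣ q ^ j ∨ q ^ j ≡ 1 [MOD p]) := by
  obtain ⟨n, hn'⟩ := hE.exists_card_eq
  have h1 : (centralizer (zpowers y : Set G)).relIndex E ∣ q ^ n := by
    rw [← hn']
    exact relIndex_dvd_card _ _
  obtain ⟨j, -, hj⟩ := (Nat.dvd_prime_pow hq.out).1 h1
  refine ⟨j, hj, ?_⟩
  by_cases hpq : p = q
  · subst hpq
    rcases j with _ | j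
    · exact Or.inl rfl
    · exact Or.inr (Or.inl (dvd_pow_self _ j.succ_ne_zero))
  · refine Or.inr (Or.inr ?_)
    rw [← hj]
    refine Coprime.relIndex_centralizer_modEq_one
      (isPGroup_zpowers_of_pow_eq_one (k := 1) (by simpa using hy)) (zpowers_le.2 hn) ?_
    rw [hn']
    exact fun h => hpq ((Nat.prime_dvd_prime_iff_eq hp.out hq.out).1 (hp.out.dvd_of_dvd_pow h))

theorem le_relIndex [Finite G] {p q : ℕ} [hp : Fact p.Prime] [hq : Fact q.Prime]
    {E : Subgroup G} (hE : IsPGroup q E) {y : G} (hy : y ^ p = 1)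
    (hn : y ∈ normalizer (E : Set G)) (hne : ¬ E ≤ centralizer (zpowers y : Set G)) :
    p ≤ (centralizer (zpowers y : Set G)).relIndex E := by
  obtain ⟨j, hj, h⟩ := relIndex_dvd_or hE hy hn
  have h1 : (centralizer (zpowers y : Set G)).relIndex E ≠ 1 := fun e => hne (relIndex_eq_one.1 e)
  rw [hj] at h1 ⊢
  have h0 : 0 < q ^ j := pow_pos hq.out.pos _
  rcases h with rfl | h | h
  · simp at h1
  · exact Nat.le_of_dvd h0 h
  · have := (Nat.modEq_iff_dvd' h0).1 h.symm
    have := Nat.le_of_dvd (by omega) this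
    omega

end Gen

/-- Fixed point ratio at most `1 / p`. -/
theorem fpr {p : ℕ} [hp : Fact p.Prime] (G : Type u) [Group G] [Finite G] :
    Group.IsSolvable G → ∀ x : G, x ^ p = 1 → Gen x → ∀ H : Subgroup G, H ≠ ⊤ →
      p * Nat.card {g : G | g⁻¹ * x * g ∈ H} ≤ Nat.card G := by
  refine induction_on_card (P := fun G _ _ => Group.IsSolvable G → ∀ x : G, x ^ p = 1 → Gen x →
    ∀ H : Subgroup G, H ≠ ⊤ → p * Nat.card {g : G | g⁻¹ * x * g ∈ H} ≤ Nat.card G) ?_ G
  intro G _ _ ih hs x hx hgen H hH
  have : Nontrivial G := by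
    by_contra h
    rw [not_nontrivial_iff_subsingleton] at h
    exact hH (Subsingleton.elim _ _)
  obtain ⟨N, hN⟩ := exists_isMinNormal (G := G)
  have := hN.normal
  by_cases hHN : H ⊔ N = ⊤
  · have hc := hN.isMulCommutative inferInstance
    have hb := hN.inf_eq_bot_of_sup_eq_top hc hH hHN
    obtain ⟨q, hq, hqN⟩ := hN.exists_isPGroup inferInstance
    have := Fact.mk hq
    by_cases hT : {g : G | g⁻¹ * x * g ∈ H} = ∅
    · simp [hT]
    obtain ⟨g₀, hg₀⟩ := Set.nonempty_iff_ne_empty.2 hT
    set y := g₀⁻¹ * x * g₀ with hy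
    have hyH : y ∈ H := hg₀
    have hyp : y ^ p = 1 := by
      have : y = g₀⁻¹ * x * g₀⁻¹⁻¹ := by rw [inv_inv]
      rw [this, conj_pow, hx]; simp
    have hne : ¬ N ≤ centralizer (zpowers y : Set G) := by
      intro h
      have hz := (hgen.conj g₀).le_center h
      refine hH (hgen.conj g₀ H ?_ hyH)
      rw [← normalizer_eq_top_iff, eq_top_iff, ← hHN]
      exact sup_le le_normalizer (hz.trans (center_le_normalizer _))
    have h1 := le_relIndex hqN hyp (by rw [normalizer_eq_top]; trivial) hne
    have h2 := card_inf_mul_relIndex (centralizer (zpowers y : Set G)) N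
    have h3 : Nat.card H * Nat.card N = Nat.card G :=
      (isComplement'_of_sup_eq_top_of_inf_eq_bot hHN hb).card_mul
    have h4 : Nat.card {g : G | g⁻¹ * x * g ∈ H} ≤
        Nat.card ↥(centralizer (zpowers y : Set G) ⊓ N) * Nat.card H := by
      rw [← Nat.card_prod]
      have key : ∀ g : {g : G | g⁻¹ * x * g ∈ H},
          ∃ z : ↥(centralizer (zpowers y : Set G) ⊓ N) × H, (g : G) = g₀ * (z.1 * z.2) := by
        rintro ⟨g, hg⟩
        have : g₀⁻¹ * g ∈ N ⊔ H := by rw [sup_comm, hHN]; trivial
        obtain ⟨n, hn, h, hh, e⟩ := mem_sup_of_normal_left.1 this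
        have e' : g = g₀ * (n * h) := by rw [e]; simp
        have h5 : n⁻¹ * y * n ∈ H := by
          have h6 : g⁻¹ * x * g ∈ H := hg
          have := H.mul_mem (H.mul_mem hh h6) (H.inv_mem hh)
          convert this using 1
          rw [e', hy]; group
        have h6 : y⁻¹ * (n⁻¹ * y * n) ∈ H ⊓ N := by
          refine ⟨H.mul_mem (H.inv_mem hyH) h5, ?_⟩
          have := N.mul_mem (hN.normal.conj_mem _ (N.inv_mem hn) y⁻¹) hn
          simpa [mul_assoc] using this
        rw [hb, mem_bot] at h6
        have h7 : y * n = n * y := by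
          have := congrArg (fun t => n * y * t) h6
          simp only [mul_one] at this
          rw [← this]; group
        refine ⟨(⟨n, ?_, hn⟩, ⟨h, hh⟩), e'⟩
        rintro _ ⟨k, rfl⟩
        exact (Commute.zpow_left h7 k).eq
      choose f hf using key
      refine Nat.card_le_card_of_injective f fun a b e => Subtype.ext ?_
      rw [hf a, hf b, e]
    calc p * Nat.card {g : G | g⁻¹ * x * g ∈ H}
        ≤ (centralizer (zpowers y : Set G)).relIndex N *
          (Nat.card ↥(centralizer (zpowers y : Set G) ⊓ N) * Nat.card H) := Nat.mul_le_mul h1 h4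
      _ = Nat.card G := by rw [← h3, ← h2]; ring
  · have h1 := ih (G ⧸ N) (card_quotient_lt hN.ne_bot) inferInstance (QuotientGroup.mk' N x)
      (by rw [← map_pow, hx, map_one]) (hgen.map _ (QuotientGroup.mk'_surjective N))
      ((H ⊔ N).map (QuotientGroup.mk' N)) (by
        intro e
        have := congrArg (comap (QuotientGroup.mk' N)) e
        rw [comap_map_eq_self (by rw [QuotientGroup.ker_mk']; exact le_sup_right), comap_top]
          at this
        exact hHN this)
    have h2 := QuotientGroup.card_preimage_mk N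
      {g : G ⧸ N | g⁻¹ * QuotientGroup.mk' N x * g ∈ (H ⊔ N).map (QuotientGroup.mk' N)}
    have h3 : Nat.card {g : G | g⁻¹ * x * g ∈ H} ≤ Nat.card (QuotientGroup.mk ⁻¹'
      {g : G ⧸ N | g⁻¹ * QuotientGroup.mk' N x * g ∈ (H ⊔ N).map (QuotientGroup.mk' N)}) := by
      refine Nat.card_le_card_of_injective (Set.inclusion ?_) (Set.inclusion_injective _)
      intro g hg
      exact ⟨g⁻¹ * x * g, le_sup_left (a := H) hg, by simp⟩
    rw [card_eq_card_quotient_mul_card_subgroup N]
    calc p * Nat.card {g : G | g⁻¹ * x * g ∈ H} ≤ p * _ := Nat.mul_le_mul_left _ (h3.trans h2.le)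
      _ = (p * _) * Nat.card N := by ring
      _ ≤ _ := Nat.mul_le_mul_right _ h1

end Cfsg.Agent.Flav
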