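import Mathlib
import Cfsg.Agent.Lib.Mod.Faithful
import Cfsg.Agent.Lib.Mod.Retract

/-! Fixed spaces of elements of prime order permuting homogeneous components. -/

set_option autoImplicit false

namespace Cfsg.Agent.Flav

open Subgroup Module Cfsg.Agent.Mod

variable {k G V : Type*} [Field k] [Group G] [AddCommGroup V] [Module k V]
  {ρ : Representation k G V} [FiniteDimensional k V]

theorem finrank_sSup_finset {S : Set (Submodule k V)} (hS : sSupIndep S)
    (T : Finset (Submodule k V)) (hT : (T : Set (Submodule k V)) ⊆ S) :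
    finrank k ↥(sSup (T : Set (Submodule k V))) = ∑ c ∈ T, finrank k c := by
  classical
  induction T using Finset.induction_on with
  | empty => simp
  | insert a s ha ih =>
    rw [Finset.coe_insert] at hT ⊢
    have hs : (s : Set (Submodule k V)) ⊆ S := (Set.subset_insert _ _).trans hT
    have := Submodule.finrank_sup_add_finrank_inf_eq a (sSup (s : Set (Submodule k V)))
    rw [(hS.disjoint_sSup (hT (Set.mem_insert _ _)) hs ha).eq_bot, finrank_bot, add_zero] at this
    rw [sSup_insert, Finset.sum_insert ha, this, ih hs]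

theorem finrank_fix_le {H : Subgroup G} {A B : Submodule k V} (h : IsCompl A B)
    (hA : IsInv ρ H A) (hB : IsInv ρ H B) :
    finrank k (fix ρ H) ≤ finrank k ↥(A ⊓ fix ρ H) + finrank k ↥(B ⊓ fix ρ H) := by
  refine le_trans (Submodule.finrank_mono ?_) (Submodule.finrank_add_le_finrank_add_finrank _ _)
  intro v hv
  have : v ∈ A ⊔ B := h.sup_eq_top ▸ Submodule.mem_top
  obtain ⟨a, ha, b, hb, rfl⟩ := Submodule.mem_sup.1 this
  have key : ∀ g ∈ H, ρ g a = a ∧ ρ g b = b := by
    intro g hg
    have h1 := mem_fix.1 hv g hg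
    rw [map_add] at h1
    have h2 : ρ g a - a = b - ρ g b := by
      rw [sub_eq_sub_iff_add_eq_add, h1, add_comm]
    have h3 : ρ g a - a ∈ A ⊓ B :=
      ⟨A.sub_mem (hA g hg a ha) ha, h2 ▸ B.sub_mem hb (hB g hg b hb)⟩
    rw [h.inf_eq_bot, Submodule.mem_bot] at h3
    rw [h3] at h2
    exact ⟨sub_eq_zero.1 h3, (sub_eq_zero.1 h2.symm).symm⟩
  exact Submodule.add_mem_sup ⟨ha, mem_fix.2 fun g hg => (key g hg).1⟩
    ⟨hb, mem_fix.2 fun g hg => (key g hg).2⟩

theorem perm_bound [Finite G] {Q : Subgroup G} (hQ : (Nat.card Q : k) ≠ 0) {p : ℕ}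
    (hp : p.Prime) {x : G} (hxQ : x ∈ normalizer (Q : Set G)) (hx : orderOf x = p)
    {Γ : Type*} [Finite Γ] [Nonempty Γ] (γ : Γ → G) (hγ : ∀ t, γ t ∈ normalizer (Q : Set G))
    {m : ℕ} (hm : ∀ c ∈ comps ρ Q,
      m * Nat.card {t : Γ | x ∈ stab ρ (c.map (ρ (γ t)))} ≤ Nat.card Γ) :
    p * m * finrank k (fix ρ (zpowers x)) ≤ (p - 1 + m) * finrank k V := by
  classical
  have := Fintype.ofFinite Γ
  have hind := sSupIndep_comps (ρ := ρ) hQ
  set s := (finite_comps (ρ := ρ) hQ).toFinset with hs
  have hmem : ∀ c, c ∈ s ↔ c ∈ comps ρ Q := fun c => Set.Finite.mem_toFinset _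
  set Fx := s.filter fun c => x ∈ stab ρ c with hFx
  set Nf := s.filter fun c => x ∉ stab ρ c with hNf
  have hFs : (Fx : Set (Submodule k V)) ⊆ comps ρ Q := fun c hc =>
    (hmem c).1 (Finset.mem_filter.1 hc).1
  have hNs : (Nf : Set (Submodule k V)) ⊆ comps ρ Q := fun c hc =>
    (hmem c).1 (Finset.mem_filter.1 hc).1
  have hzx : zpowers x ≤ normalizer (Q : Set G) := zpowers_le.2 hxQ
  have hN : finrank k V = ∑ c ∈ s, finrank k c := by
    rw [← finrank_sSup_finset hind s (by rw [hs, Set.Finite.coe_toFinset]), hs,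
      Set.Finite.coe_toFinset, sSup_comps hQ, finrank_top]
  have hcompl : IsCompl (sSup (Fx : Set (Submodule k V))) (sSup (Nf : Set (Submodule k V))) := by
    constructor
    · refine sSupIndep.disjoint_sSup_sSup hind hFs hNs ?_
      rw [Finset.disjoint_coe]
      exact Finset.disjoint_filter_filter_not _ _ _
    · rw [codisjoint_iff, ← sSup_union, ← Finset.coe_union, Finset.filter_union_filter_not_eq,
        hs, Set.Finite.coe_toFinset, sSup_comps hQ]
  have hmapN : ∀ h ∈ zpowers x, ∀ c ∈ (Nf : Set (Submodule k V)), c.map (ρ h) ∈ Nf := by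
    intro h hh c hc
    refine Finset.mem_filter.2 ⟨(hmem _).2 (map_rho_mem_comps (hNs hc) (hzx hh)), fun h1 => ?_⟩
    refine (Finset.mem_filter.1 hc).2 ?_
    obtain ⟨n, rfl⟩ := hh
    rw [mem_stab, ← map_rho_mul] at h1
    have h2 := congrArg (fun W => Submodule.map (ρ (x ^ n)⁻¹) W) h1
    simp only [← map_rho_mul] at h2
    rw [mem_stab]
    convert h2 using 3
    · group
    · simp [Module.End.one_eq_id]
  have hfree : IsFreeOn ρ (zpowers x) (sSup (Nf : Set (Submodule k V))) := by
    refine isFreeOn_sSup (hind.mono hNs) hmapN fun h hh c hc _ he => ?_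
    by_contra h1
    refine (Finset.mem_filter.1 hc).2 ?_
    have := Fact.mk hp
    have h2 : zpowers h = zpowers x :=
      Subgroup.eq_of_le_of_card_ge (zpowers_le.2 hh) (by
        have h3 : Nat.card (zpowers h) ∣ p := by
          rw [← hx, ← Nat.card_zpowers x]
          exact card_dvd_of_le (zpowers_le.2 hh)
        rcases (Nat.dvd_prime hp).1 h3 with h4 | h4
        · rw [card_eq_one, zpowers_eq_bot] at h4
          exact absurd h4 h1
        · rw [h4, Nat.card_zpowers, hx])
    exact zpowers_le.2 (mem_stab.2 he) (h2 ▸ mem_zpowers x)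
  have hinvN : IsInv ρ (zpowers x) (sSup (Nf : Set (Submodule k V))) := by
    rw [isInv_iff_map_le]
    intro g hg
    rw [sSup_eq_iSup', Submodule.map_iSup]
    exact iSup_le fun c => le_iSup_of_le ⟨_, hmapN g hg c c.2⟩ le_rfl
  have hinvF : IsInv ρ (zpowers x) (sSup (Fx : Set (Submodule k V))) :=
    isInv_sSup fun c hc => isInv_iff_le_stab.2 (zpowers_le.2 (Finset.mem_filter.1 hc).2)
  have h1 := finrank_fix_le hcompl hinvF hinvN
  have h2 := hfree.finrank_eq hinvN
  rw [Nat.card_zpowers, hx] at h2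
  have h3 := Submodule.finrank_add_eq_of_isCompl hcompl
  have h4 := finrank_sSup_finset hind Fx hFs
  have h5 : finrank k ↥(sSup (Fx : Set (Submodule k V)) ⊓ fix ρ (zpowers x)) ≤
      finrank k ↥(sSup (Fx : Set (Submodule k V))) := Submodule.finrank_mono inf_le_left
  -- averaging
  have h6 : ∀ t : Γ, ∑ c ∈ Fx, finrank k c =
      ∑ c ∈ s, if x ∈ stab ρ (c.map (ρ (γ t))) then finrank k c else 0 := by
    intro t
    rw [← Finset.sum_filter]
    symm
    refine Finset.sum_nbij' (fun c => c.map (ρ (γ t))) (fun c => c.map (ρ (γ t)⁻¹)) ?_ ?_ ?_ ?_ ?_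
    · intro c hc
      rw [Finset.mem_filter] at hc
      exact Finset.mem_filter.2 ⟨(hmem _).2 (map_rho_mem_comps ((hmem _).1 hc.1) (hγ t)), hc.2⟩
    · intro c hc
      refine Finset.mem_filter.2 ⟨(hmem _).2 (map_rho_mem_comps (hFs hc) (inv_mem (hγ t))), ?_⟩
      rw [map_rho_map_inv]
      exact (Finset.mem_filter.1 hc).2
    · intro c _
      exact map_rho_inv_map c _
    · intro c _
      exact map_rho_map_inv c _
    · intro c _
      exact (finrank_map_rho c _).symm
  have h7 : Nat.card Γ * (m * ∑ c ∈ Fx, finrank k c) ≤ Nat.card Γ * finrank k V := by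
    calc Nat.card Γ * (m * ∑ c ∈ Fx, finrank k c)
        = m * ∑ t : Γ, ∑ c ∈ s, if x ∈ stab ρ (c.map (ρ (γ t))) then finrank k c else 0 := by
          simp only [← h6, Finset.sum_const, Finset.card_univ, smul_eq_mul, Nat.card_eq_fintype_card]
          ring
      _ = ∑ c ∈ s, (m * Nat.card {t : Γ | x ∈ stab ρ (c.map (ρ (γ t)))}) * finrank k c := by
          rw [Finset.sum_comm, Finset.mul_sum]
          refine Finset.sum_congr rfl fun c _ => ?_
          rw [← Finset.sum_filter, Finset.sum_const, smul_eq_mul, mul_assoc]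
          congr 2
          rw [Nat.card_eq_fintype_card, Fintype.card_subtype]
          simp
      _ ≤ ∑ c ∈ s, Nat.card Γ * finrank k c :=
          Finset.sum_le_sum fun c hc => Nat.mul_le_mul_right _ (hm c ((hmem c).1 hc))
      _ = Nat.card Γ * finrank k V := by rw [hN, Finset.mul_sum]
  have h8 := Nat.le_of_mul_le_mul_left h7 Nat.card_pos
  rw [← h4] at h8
  obtain ⟨r, rfl⟩ : ∃ r, p = r + 1 := ⟨p - 1, by have := hp.pos; omega⟩
  rw [Nat.add_sub_cancel]
  generalize finrank k ↥(sSup (Fx : Set (Submodule k V))) = F at *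
  generalize finrank k ↥(sSup (Fx : Set (Submodule k V)) ⊓ fix ρ (zpowers x)) = F' at *
  generalize finrank k ↥(sSup (Nf : Set (Submodule k V)) ⊓ fix ρ (zpowers x)) = B' at *
  generalize finrank k ↥(sSup (Nf : Set (Submodule k V))) = B at *
  generalize finrank k (fix ρ (zpowers x)) = a at *
  generalize finrank k V = N at *
  have h9 : (r + 1) * a ≤ r * F + N := by nlinarith
  nlinarith [Nat.mul_le_mul_left m h9, Nat.mul_le_mul_left r h8]

/-- The centralizer of `T ≠ 1` has dimension more than the square of that of the fixed space. -/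
theorem sq_lt_finrank {T : End k V} (hT : T ≠ 1) {C : Submodule k (End k V)}
    (hC : ∀ φ, T * φ = φ * T → φ ∈ C) :
    finrank k (LinearMap.ker (T - 1)) ^ 2 < finrank k C := by
  set A := LinearMap.ker (T - 1) with hA
  set B := LinearMap.range (T - 1) with hB
  let Φ : ((V ⧸ B) →ₗ[k] A) →ₗ[k] End k V :=
    (LinearMap.llcomp k V A V A.subtype).comp (LinearMap.lcomp k A B.mkQ)
  have hΦ : ∀ φ v, Φ φ v = (φ (B.mkQ v) : V) := fun _ _ => rfl
  have hinj : Function.Injective Φ := by
    intro φ ψ e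
    ext v
    have := congrArg (fun f : End k V => f v) e
    simpa [hΦ] using this
  have hfix : ∀ a : A, T a = a := fun a => by
    have : (T - 1) (a : V) = 0 := a.2
    rw [LinearMap.sub_apply, sub_eq_zero] at this
    exact this
  have hle : LinearMap.range Φ < C := by
    refine lt_of_le_of_ne ?_ fun e => hT ?_
    · rintro _ ⟨φ, rfl⟩
      refine hC _ (LinearMap.ext fun v => ?_)
      rw [Module.End.mul_apply, Module.End.mul_apply, hΦ, hΦ, hfix]
      congr 2
      symm
      rw [Submodule.mkQ_apply, Submodule.mkQ_apply, Submodule.Quotient.eq]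
      exact ⟨v, rfl⟩
    · have : (1 : End k V) ∈ LinearMap.range Φ := e ▸ hC 1 (by simp)
      obtain ⟨φ, hφ⟩ := this
      ext v
      have h1 : (φ (B.mkQ v) : V) = v := by rw [← hΦ, hφ]; rfl
      rw [← h1, hfix]; rfl
  have h1 := Submodule.finrank_lt_finrank_of_lt hle
  rw [LinearMap.finrank_range_of_inj hinj, Module.finrank_linearMap] at h1
  have h2 := B.finrank_quotient_add_finrank
  have h3 := LinearMap.finrank_range_add_finrank_ker (T - 1)
  rw [← hA, ← hB] at h3
  have h4 : finrank k (V ⧸ B) = finrank k A := by omega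
  rwa [h4, ← sq] at h1

end Cfsg.Agent.Flav
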