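import Mathlib
import Cfsg.Agent.Lib.Flav.Fpr
import Cfsg.Agent.Lib.Flav.Perm

/-! Flavell's bound on the fixed space of an element of prime order: the two main cases. -/

set_option autoImplicit false

namespace Cfsg.Agent.Flav

open Subgroup Module Cfsg.Agent.Mod Cfsg.Agent.Core
open scoped commutatorElement

universe u

section Basic

variable {k G V : Type*} [Field k] [Group G] [AddCommGroup V] [Module k V]
  {ρ : Representation k G V}

variable (ρ) in
/-- Nontrivial normal subgroups have no fixed vectors. -/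
def Fpf : Prop := ∀ N : Subgroup G, N.Normal → N ≠ ⊥ → fix ρ N = ⊥

theorem Fpf.eq_bot (h : Fpf ρ) {N : Subgroup G} (hN : N.Normal) {c : Submodule k V} (hc : c ≠ ⊥)
    (hle : N ≤ kerOn ρ c) : N = ⊥ := by
  by_contra hb
  rw [le_kerOn_iff, h N hN hb, le_bot_iff] at hle
  exact hc hle

theorem Fpf.eq_one [Nontrivial V] (h : Fpf ρ) {g : G} (hg : ρ g = 1) : g = 1 := by
  have := h.eq_bot (N := ρ.ker) inferInstance top_ne_bot kerOn_top.ge
  rw [← mem_bot, ← this]
  exact hg

theorem Fpf.card_ne_zero [Finite G] [FiniteDimensional k V] [Nontrivial V] (h : Fpf ρ) (l : ℕ)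
    [Fact l.Prime] [CharP k l] {N : Subgroup G} [N.Normal] (hN : Group.IsNilpotent N) :
    (Nat.card N : k) ≠ 0 := by
  refine natCast_ne_zero_of_not_dvd k (p := l) fun hd => ?_
  obtain ⟨y, hy, ho⟩ := exists_mem_orderOf_eq_of_dvd_card hd
  have h1 := le_pCore_of_le_nilpotent_normal hN
    (isPGroup_zpowers_of_orderOf (k := 1) (by simpa using ho)) (zpowers_le.2 hy)
  have h2 : pCore l G ≠ ⊥ := by
    intro e
    rw [e, le_bot_iff, zpowers_eq_bot] at h1
    rw [h1, orderOf_one] at ho
    exact (Fact.out : l.Prime).one_lt.ne ho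
  have h3 := (isInv_top (ρ := ρ) _).inf_fix_ne_bot_of_isPGroup (isPGroup_pCore l) top_ne_bot
  rw [h _ inferInstance h2] at h3
  simp at h3

theorem mem_stab_map {W : Submodule k V} {a g : G} :
    g ∈ stab ρ (W.map (ρ a)) ↔ a⁻¹ * g * a ∈ stab ρ W := by
  rw [mem_stab, mem_stab, map_rho_mul, map_rho_mul]
  constructor
  · intro h
    rw [h, map_rho_inv_map]
  · intro h
    have := congrArg (fun U => Submodule.map (ρ a) U) h
    simpa only [map_rho_map_inv] using this

theorem fix_zpowers_eq (x : G) : fix ρ (zpowers x) = LinearMap.ker (ρ x - 1) := by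
  ext v
  rw [mem_fix_zpowers, LinearMap.mem_ker, LinearMap.sub_apply, sub_eq_zero]
  rfl

variable (ρ) in
/-- The two-sided action on endomorphisms. -/
noncomputable def two : Representation k (G × G) (End k V) where
  toFun g := (LinearMap.mulLeft k (ρ g.1)).comp (LinearMap.mulRight k (ρ g.2⁻¹))
  map_one' := by ext; simp
  map_mul' a b := by ext; simp

theorem two_apply (g : G × G) (φ : End k V) : two ρ g φ = ρ g.1 * (φ * ρ g.2⁻¹) := rfl

theorem eq_smul_of_mem_scal {z : G} (hz : z ∈ scal ρ ⊤) : ∃ t : k, ρ z = t • (1 : End k V) := by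
  obtain ⟨t, ht⟩ := hz
  exact ⟨t, LinearMap.ext fun v => ht v trivial⟩

end Basic

section Cases

variable {k : Type*} {G : Type u} {V : Type*} [Field k] [Group G] [AddCommGroup V] [Module k V]
  {ρ : Representation k G V} [Finite G] [FiniteDimensional k V] [Nontrivial V] [IsAlgClosed k]
  (l : ℕ) [Fact l.Prime] [CharP k l] {p : ℕ} [hp : Fact p.Prime]

include l in
theorem case_abelian [Group.IsSolvable G] (h5 : 5 ≤ p) (hF : Fpf ρ) {x : G} (hx : orderOf x = p)
    (hgen : Gen x) {A : Subgroup G} [A.Normal] (hA : IsMulCommutative A) (hAZ : ¬ A ≤ center G) :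
    2 * finrank k (fix ρ (zpowers x)) < finrank k V := by
  have hAk := hF.card_ne_zero l (N := A) isNilpotent_of_isMulCommutative
  have h1 := perm_bound (ρ := ρ) hAk hp.out (x := x) (by rw [normalizer_eq_top]; trivial) hx
    (fun g : G => g) (fun g => by rw [normalizer_eq_top]; trivial) (m := p) (by
      intro c hc
      simp only [mem_stab_map]
      refine fpr G inferInstance x (by rw [← hx, pow_orderOf_eq_one]) hgen _ fun e => hAZ ?_
      have h2 : A ≤ scal ρ c :=
        le_scal_of_mem_comps le_rfl (le_centralizer_iff_isMulCommutative.2 hA) hc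
      have h3 : ⁅A, ⊤⁆ = ⊥ := hF.eq_bot inferInstance (ne_bot_of_mem_comps hc)
        (commutator_le.2 fun a ha g _ => commutator_mem_kerOn_of_mem_scal (h2 ha) (e ▸ mem_top g))
      rwa [commutator_eq_bot_iff_le_centralizer, coe_top, centralizer_univ] at h3)
  have h2 : 0 < finrank k V := finrank_pos
  obtain ⟨r, rfl⟩ : ∃ r, p = r + 5 := ⟨p - 5, by omega⟩
  have : r + 5 - 1 = r + 4 := rfl
  rw [this] at h1
  by_contra h3
  push Not at h3
  have h4 : (r + 5) * (r + 5) * finrank k V ≤ 2 * (r + 4 + (r + 5)) * finrank k V := by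
    nlinarith [Nat.mul_le_mul_left ((r + 5) * (r + 5)) h3]
  have := Nat.le_of_mul_le_mul_right h4 h2
  nlinarith

omit hp in
theorem num_aux (hp : p.Prime) (h5 : 5 ≤ p) {q j : ℕ} (hq : q.Prime) (hj : 2 ≤ j)
    (h : p ∣ q ^ j ∨ q ^ j ≡ 1 [MOD p]) : 4 * (p - 1 + q ^ j) ≤ p * q ^ j := by
  obtain ⟨r, rfl⟩ : ∃ r, p = r + 5 := ⟨p - 5, by omega⟩
  have : r + 5 - 1 = r + 4 := rfl
  rw [this]
  by_cases h16 : 16 ≤ q ^ j
  · nlinarith
  have h2 := hq.two_le
  have h3 : q ^ 2 ≤ q ^ j := Nat.pow_le_pow_right hq.pos hj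
  have h4 : q ≤ 3 := by nlinarith
  have h5 : j ≤ 3 := by
    by_contra h6
    have := Nat.pow_le_pow_left h2 j
    have := Nat.pow_le_pow_right (show 0 < 2 by norm_num) (show 4 ≤ j by omega)
    omega
  have h0 : 0 < q ^ j := pow_pos hq.pos _
  have h6 : r + 5 ∣ q ^ j ∨ r + 5 ∣ q ^ j - 1 :=
    h.imp id fun h => (Nat.modEq_iff_dvd' h0).1 h.symm
  have h7 : r + 5 ≤ q ^ j := by
    rcases h6 with h6 | h6
    · exact Nat.le_of_dvd h0 h6
    · have := Nat.le_of_dvd (by nlinarith [Nat.sub_add_cancel h0]) h6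
      omega
  have h8 : r ≤ 10 := by omega
  interval_cases q <;> interval_cases j <;> interval_cases r <;> first | omega | norm_num at hp

/-- The group form of the bound. -/
def Bnd (p : ℕ) (G : Type u) [Group G] : Prop :=
  Group.IsSolvable G → ∀ x : G, x ^ p = 1 → Gen x → ∀ E : Subgroup G, IsMinNormal E →
    ¬ E ≤ center G → Nat.card ↥(E ⊓ centralizer (zpowers x : Set G)) ^ 2 < Nat.card E

theorem commutator_mul_center {G : Type*} [Group G] {a b u v : G} (hu : u ∈ center G)
    (hv : v ∈ center G) : ⁅a * u, b * v⁆ = ⁅a, b⁆ := by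
  rw [mem_center_iff] at hu hv
  simp only [commutatorElement_def, mul_inv_rev]
  calc a * u * (b * v) * (u⁻¹ * a⁻¹) * (v⁻¹ * b⁻¹)
      = a * (u * (b * v)) * u⁻¹ * (a⁻¹ * v⁻¹) * b⁻¹ := by group
    _ = a * b * (v * a⁻¹) * v⁻¹ * b⁻¹ := by rw [← hu]; group
    _ = a * b * a⁻¹ * b⁻¹ := by rw [← hv]; group

include l in
theorem case_scalar [Group.IsSolvable G] (h5 : 5 ≤ p)
    (ih : ∀ (H : Type u) [Group H] [Finite H], Nat.card H < Nat.card G → Bnd p H)
    (hF : Fpf ρ) {x : G} (hx : orderOf x = p) (hgen : Gen x) (hZ : center G ≤ scal ρ ⊤) :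
    2 * finrank k (fix ρ (zpowers x)) < finrank k V := by
  by_cases hab : ∃ A : Subgroup G, A.Normal ∧ IsMulCommutative A ∧ ¬ A ≤ center G
  · obtain ⟨A, _, hA, hAZ⟩ := hab
    exact case_abelian l h5 hF hx hgen hA hAZ
  push Not at hab
  have hx1 : x ≠ 1 := by
    rintro rfl
    rw [orderOf_one] at hx
    omega
  have hxp : x ^ p = 1 := by rw [← hx, pow_orderOf_eq_one]
  by_cases hZt : center G = ⊤
  · rw [hF _ (normal_of_le_center (hZt ▸ le_top)) (by rwa [Ne, zpowers_eq_bot]), finrank_bot]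
    exact finrank_pos
  have : Nontrivial (G ⧸ center G) := QuotientGroup.nontrivial_iff.2 hZt
  obtain ⟨E, hE⟩ := exists_isMinNormal (G := G ⧸ center G)
  have := hE.normal
  set π := QuotientGroup.mk' (center G) with hπ
  have hπs : Function.Surjective π := QuotientGroup.mk'_surjective _
  have hπ1 : ∀ g, π g = 1 ↔ g ∈ center G := fun g => QuotientGroup.eq_one_iff g
  set N := E.comap π with hN
  have hNE : N.map π = E := map_comap_eq_self_of_surjective hπs E
  have hEc := hE.isMulCommutative inferInstance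
  have hcomm : ∀ a ∈ N, ∀ b ∈ N, ⁅a, b⁆ ∈ center G := by
    intro a ha b hb
    rw [← hπ1, map_commutatorElement, commutatorElement_eq_one_iff_mul_comm]
    exact mul_comm_of_mem_of_isMulCommutative hEc ha hb
  have hNab : ¬ IsMulCommutative N := by
    intro h
    refine hE.ne_bot ?_
    rw [← hNE, Subgroup.map_eq_bot_iff, QuotientGroup.ker_mk']
    exact hab N inferInstance h
  have hEp : ¬ (Nat.card E).Prime := by
    intro h
    have := Fact.mk h
    have : IsCyclic E := isCyclic_of_prime_card rfl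
    refine hNab ((π.subgroupComap E).isMulCommutative_of_isCyclic_of_ker_le_center ?_)
    intro g hg
    have : (g : G) ∈ center G := (hπ1 g).1 (congrArg Subtype.val hg)
    rw [mem_center_iff] at this ⊢
    exact fun h => Subtype.ext (this h)
  have hZb : center G ≠ ⊥ := by
    intro e
    refine hNab (isMulCommutative_of_forall fun a ha b hb => ?_)
    rw [← commutatorElement_eq_one_iff_mul_comm, ← mem_bot, ← e]
    exact hcomm a ha b hb
  have hB := ih _ (card_quotient_lt hZb) inferInstance (π x) (by rw [← map_pow, hxp, map_one])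
    (hgen.map π hπs) E hE fun h => hEp (hE.prime_card_of_le_center h)
  obtain ⟨q, hq, hqE⟩ := hE.exists_isPGroup inferInstance
  have := Fact.mk hq
  obtain ⟨j, hj, hnum⟩ := relIndex_dvd_or (p := p) hqE (y := π x)
    (by rw [← map_pow, hxp, map_one]) (by rw [normalizer_eq_top]; trivial)
  have hcard := card_inf_mul_relIndex (centralizer (zpowers (π x) : Set (G ⧸ center G))) E
  rw [hj, inf_comm] at hcard
  have hj2 : 2 ≤ j := by
    obtain ⟨s, hs⟩ := (hqE.to_inf_left
      (K := centralizer (zpowers (π x) : Set (G ⧸ center G)))).exists_card_eq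
    rw [← hcard, hs, sq] at hB
    have h1 := (Nat.pow_lt_pow_iff_right hq.one_lt).1 (lt_of_mul_lt_mul_left hB (Nat.zero_le _))
    by_contra h2
    have h3 : j = 1 := by omega
    have h4 : s = 0 := by omega
    rw [hs, h3, h4] at hcard
    exact hEp (by rw [← hcard]; simpa using hq)
  have hnum' := num_aux hp.out h5 hq hj2 (hnum.resolve_left (by omega))
  -- the two-sided action
  have hNk : (Nat.card N : k) ≠ 0 := by
    refine hF.card_ne_zero l (isNilpotent_of_commutator_commutator_eq_bot ?_)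
    rw [commutator_eq_bot_iff_le_centralizer]
    exact (commutator_le.2 hcomm).trans (center_le_centralizer _)
  let Q : Subgroup (G × G) := N.prod N ⊓
    (π.comp (MonoidHom.fst G G)).eqLocus (π.comp (MonoidHom.snd G G))
  have hQ : ∀ g : G × G, g ∈ Q ↔ (g.1 ∈ N ∧ g.2 ∈ N) ∧ π g.1 = π g.2 := fun g => Iff.rfl
  have hQk : (Nat.card Q : k) ≠ 0 := by
    refine card_ne_zero_of_le (Q := N.prod N) ?_ inf_le_left
    rw [Nat.card_congr (N.prodEquiv N).toEquiv, Nat.card_prod, Nat.cast_mul]
    exact mul_ne_zero hNk hNk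
  have hxQ : (x, x) ∈ normalizer (Q : Set (G × G)) := by
    refine mem_normalizer_fintype fun g hg => (hQ _).2 ⟨⟨?_, ?_⟩, ?_⟩
    · exact (inferInstance : N.Normal).conj_mem _ hg.1.1 x
    · exact (inferInstance : N.Normal).conj_mem _ hg.1.2 x
    · have := ((hQ g).1 hg).2
      simp [this]
  have hNQ : ∀ t ∈ N, (t, (1 : G)) ∈ normalizer (Q : Set (G × G)) := by
    intro t ht
    refine mem_normalizer_fintype fun g hg => (hQ _).2 ⟨⟨?_, ?_⟩, ?_⟩
    · exact (inferInstance : N.Normal).conj_mem _ hg.1.1 t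
    · simpa using hg.1.2
    · have h1 := ((hQ g).1 hg).2
      have h2 : π t * π g.1 = π g.1 * π t := mul_comm_of_mem_of_isMulCommutative hEc ht hg.1.1
      simp [h2, ← h1]
  have hscal : ∀ c ∈ comps (two ρ) Q, Q ≤ scal (two ρ) c := by
    rintro _ ⟨U, hU, rfl⟩ g hg
    rw [mem_scal_hcomp hg]
    refine hU.mem_scal (isInv_iff_le_stab.1 hU.inv hg) fun a ha φ _ => ?_
    have h1 : a.1⁻¹ * a.2 ∈ center G := QuotientGroup.eq.1 ((hQ a).1 ha).2
    have h2 : g.1⁻¹ * g.2 ∈ center G := QuotientGroup.eq.1 ((hQ g).1 hg).2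
    have h3 := commutator_mul_center (a := a.1) (b := g.1) h1 h2
    rw [mul_inv_cancel_left, mul_inv_cancel_left] at h3
    obtain ⟨t, ht⟩ := eq_smul_of_mem_scal (hZ (hcomm _ ha.1.1 _ hg.1.1))
    change ρ ⁅a.1, g.1⁆ * (φ * ρ ⁅a.2, g.2⁆⁻¹) = φ
    rw [h3, ← mul_assoc, show ρ ⁅a.1, g.1⁆ * φ = φ * ρ ⁅a.1, g.1⁆ by simp [ht], mul_assoc,
      rho_mul_inv, mul_one]
  have hstab : ∀ c ∈ comps (two ρ) Q, ∀ d ∈ N, (d, (1 : G)) ∈ stab (two ρ) c → d ∈ center G := by
    intro c hc d hd hs
    refine hab (N ⊓ centralizer (N : Set G)) inferInstance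
      (isMulCommutative_of_forall fun a ha b hb => hb.2 a ha.1) ⟨hd, fun n hn => ?_⟩
    have h1 := commutator_mem_kerOn_of_mem_scal (hscal c hc ((hQ (n, n)).2 ⟨⟨hn, hn⟩, rfl⟩)) hs
    obtain ⟨φ, hφ, hφ0⟩ := Submodule.exists_mem_ne_zero_of_ne_bot (ne_bot_of_mem_comps hc)
    have h2 : ρ ⁅n, d⁆ * (φ * ρ ⁅n, (1 : G)⁆⁻¹) = φ := mem_kerOn.1 h1 φ hφ
    obtain ⟨t, ht⟩ := eq_smul_of_mem_scal (hZ (hcomm _ hn _ hd))
    have h3 : (t - 1) • φ = 0 := by
      rw [sub_smul, one_smul, sub_eq_zero]
      simpa [ht] using h2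
    rw [smul_eq_zero, sub_eq_zero] at h3
    rw [h3.resolve_right hφ0, one_smul] at ht
    exact commutatorElement_eq_one_iff_mul_comm.1 (hF.eq_one ht)
  have hxx : orderOf (x, x) = p := by rw [Prod.orderOf_mk, hx, Nat.lcm_self]
  have h1 := perm_bound (ρ := two ρ) hQk hp.out hxQ hxx (fun t : N => ((t : G), (1 : G)))
    (fun t => hNQ t t.2) (m := q ^ j) (by
      intro c hc
      have h2 := card_inf_mul_relIndex
        ((centralizer (zpowers (π x) : Set (G ⧸ center G))).comap π) N
      rw [relIndex_comap, hNE, hj] at h2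
      rw [← h2, mul_comm]
      refine Nat.mul_le_mul_right _ ?_
      by_cases hT : {t : N | (x, x) ∈ stab (two ρ) (c.map (two ρ ((t : G), (1 : G))))} = ∅
      · simp [hT]
      obtain ⟨t₀, ht₀⟩ := Set.nonempty_iff_ne_empty.2 hT
      have key : ∀ t : {t : N | (x, x) ∈ stab (two ρ) (c.map (two ρ ((t : G), (1 : G))))},
          (t : G) * (t₀ : G)⁻¹ ∈
            (centralizer (zpowers (π x) : Set (G ⧸ center G))).comap π ⊓ N := by
        rintro ⟨t, ht⟩
        have he : (t : G) * (t₀ : G)⁻¹ ∈ N := N.mul_mem t.2 (N.inv_mem t₀.2)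
        refine ⟨?_, he⟩
        set e := (t : G) * (t₀ : G)⁻¹ with he'
        have h3 : (x, x) ∈ stab (two ρ) ((c.map (two ρ ((t₀ : G), (1 : G)))).map
            (two ρ (e, (1 : G)))) := by
          rw [← map_rho_mul, show (e, (1 : G)) * ((t₀ : G), (1 : G)) = ((t : G), (1 : G)) by
            simp [he']]
          exact ht
        rw [mem_stab_map] at h3
        have h4 := mul_mem (inv_mem (show (x, x) ∈ stab (two ρ) _ from ht₀)) h3
        have h5 := hstab _ (map_rho_mem_comps hc (hNQ _ t₀.2)) (x⁻¹ * (e⁻¹ * x * e)) (by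
          have := N.mul_mem ((inferInstance : N.Normal).conj_mem _ (N.inv_mem he) x⁻¹) he
          simpa [mul_assoc] using this) (by simpa using h4)
        rw [← hπ1] at h5
        simp only [map_mul, map_inv] at h5
        have h6 : π x * π e = π e * π x := by
          have := congrArg (fun s => π e * π x * s) h5
          simp only [mul_one] at this
          rw [← this]; group
        rintro _ ⟨n, rfl⟩
        exact (Commute.zpow_left h6 n).eq
      refine Nat.card_le_card_of_injective (fun t => ⟨_, key t⟩) fun a b e => ?_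
      have := congrArg Subtype.val e
      simp only [mul_left_inj] at this
      exact Subtype.ext (Subtype.ext this))
  have h2 := sq_lt_finrank (T := ρ x) (fun h => hx1 (hF.eq_one h))
    (C := fix (two ρ) (zpowers (x, x))) (fun φ hφ => by
      rw [mem_fix_zpowers, two_apply, ← mul_assoc, hφ, mul_assoc, rho_mul_inv, mul_one])
  rw [← fix_zpowers_eq] at h2
  rw [Module.finrank_linearMap] at h1
  have h3 : 0 < p * q ^ j := Nat.mul_pos hp.out.pos (pow_pos hq.pos _)
  have h4 : p * q ^ j * (4 * finrank k (fix (two ρ) (zpowers (x, x)))) ≤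
      p * q ^ j * (finrank k V * finrank k V) := by
    nlinarith [Nat.mul_le_mul_right (finrank k V * finrank k V) hnum']
  have h5 := Nat.le_of_mul_le_mul_left h4 h3
  by_contra h6
  push Not at h6
  nlinarith [Nat.mul_le_mul h6 h6]

end Cases

end Cfsg.Agent.Flav
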