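import Mathlib
import Cfsg.Agent.Lib.Coprime.Action
import Cfsg.Agent.Lib.Core.Frattini

/-! Generation by two conjugates over an irreducible module with small fixed space. -/

set_option autoImplicit false

namespace Cfsg.Agent.Flav

open Subgroup Cfsg.Agent.Core
open scoped commutatorElement

variable {G : Type*} [Group G]

theorem mem_centralizer_zpowers {x g : G} (h : x * g = g * x) :
    g ∈ centralizer (zpowers x : Set G) := by
  rintro _ ⟨n, rfl⟩
  exact (Commute.zpow_left h n).eq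

theorem comm_of_conj_mem {E M : Subgroup G} [hE : E.Normal] (h : M ⊓ E = ⊥) {y n : G}
    (hy : y ∈ M) (hn : n ∈ E) (h1 : n⁻¹ * y * n ∈ M) : y * n = n * y := by
  have h6 : y⁻¹ * (n⁻¹ * y * n) ∈ M ⊓ E := by
    refine ⟨M.mul_mem (M.inv_mem hy) h1, ?_⟩
    have := E.mul_mem (hE.conj_mem _ (E.inv_mem hn) y⁻¹) hn
    simpa [mul_assoc] using this
  rw [h, mem_bot] at h6
  have := congrArg (fun t => n * y * t) h6
  simp only [mul_one] at this
  rw [← this]; group

theorem two_gen [Finite G] {E Q : Subgroup G} (hE : IsMinNormal E) (hc : IsMulCommutative E)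
    (hcop : (Nat.card E).Coprime (Nat.card Q)) (hEQ : E ⊓ centralizer (Q : Set G) = ⊥) {x a : G}
    (hx : x ∈ normalizer (Q : Set G)) (ha : a ∈ normalizer (Q : Set G))
    (hgen : zpowers x ⊔ zpowers (a * x * a⁻¹) ⊔ E = ⊤)
    (hb : Nat.card ↥(E ⊓ centralizer (zpowers x : Set G)) ^ 2 < Nat.card E) :
    ∃ v ∈ E, zpowers x ⊔ zpowers (v * (a * x * a⁻¹) * v⁻¹) = ⊤ := by
  have hEn := hE.normal
  by_contra hcon
  push Not at hcon
  set y := a * x * a⁻¹ with hy
  have hyN : y ∈ normalizer (Q : Set G) := mul_mem (mul_mem ha hx) (inv_mem ha)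
  have hEtop : ∀ K : Subgroup G, K ≤ normalizer (E : Set G) := fun K => by
    rw [normalizer_eq_top]; exact le_top
  have hME : normalizer (Q : Set G) ⊓ E = ⊥ := by
    rw [eq_bot_iff, ← hEQ]
    refine fun n hn => ⟨hn.2, fun q hq => ?_⟩
    have h1 : ⁅q, n⁆ ∈ E ⊓ Q := by
      refine ⟨?_, ?_⟩
      · rw [commutatorElement_def, mul_assoc]
        simpa [mul_assoc] using E.mul_mem (hEn.conj_mem n hn.2 q) (E.inv_mem hn.2)
      · have := Q.mul_mem hq ((mem_normalizer_iff.1 hn.1 q⁻¹).1 (Q.inv_mem hq))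
        simpa [commutatorElement_def, mul_assoc] using this
    rw [inf_eq_bot_of_coprime_card hcop, mem_bot] at h1
    exact commutatorElement_eq_one_iff_mul_comm.1 h1
  have hN : (E ⊔ Q).Normal := by
    rw [normal_iff_top_le_normalizer, ← hgen]
    refine sup_le (le_normalizer_sup (hEtop _) (sup_le (zpowers_le.2 hx) (zpowers_le.2 hyN))) ?_
    exact le_sup_left.trans le_normalizer
  have key : ∀ v : E, ∃ z : ↥(E ⊓ centralizer (zpowers x : Set G)) ×
      ↥(E ⊓ centralizer (zpowers x : Set G)), (v : G) = z.1 * (a * z.2 * a⁻¹) := by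
    rintro ⟨v, hv⟩
    set B := zpowers x ⊔ zpowers (v * y * v⁻¹) with hB
    have hxB : x ∈ B := le_sup_left (a := zpowers x) (mem_zpowers x)
    have hyB : v * y * v⁻¹ ∈ B := le_sup_right (b := zpowers (v * y * v⁻¹)) (mem_zpowers _)
    have hBE : B ⊔ E = ⊤ := by
      rw [eq_top_iff, ← hgen]
      refine sup_le (sup_le (zpowers_le.2 (mem_sup_left hxB)) (zpowers_le.2 ?_)) le_sup_right
      have := mul_mem (mul_mem (inv_mem (mem_sup_right (S := B) hv)) (mem_sup_left hyB))
        (mem_sup_right (S := B) hv)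
      simpa [mul_assoc] using this
    have hBE' := hE.inf_eq_bot_of_sup_eq_top hc (hcon v hv) hBE
    have h1 : (B ⊓ (E ⊔ Q)) ⊔ E = Q ⊔ E := by
      rw [← sup_inf_eq_inf_sup_of_le_normalizer (hEtop B) le_sup_left, hBE, top_inf_eq, sup_comm]
    have h2 : Nat.card ↥(B ⊓ (E ⊔ Q)) = Nat.card Q := by
      have h3 := card_sup_of_disjoint (hEtop (B ⊓ (E ⊔ Q)))
        (eq_bot_iff.2 (hBE' ▸ inf_le_inf_right E inf_le_left))
      rw [h1, card_sup_of_disjoint (hEtop Q) (inf_eq_bot_of_coprime_card hcop.symm)] at h3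
      exact (Nat.eq_of_mul_eq_mul_right Nat.card_pos h3).symm
    obtain ⟨n, hn, hQ'⟩ := Coprime.sz_eq_conj (hEtop Q) inf_le_right hcop h2
      (Or.inl (by have := isNilpotent_of_isMulCommutative (G := E); infer_instance))
    have h3 : B ≤ normalizer ((B ⊓ (E ⊔ Q) : Subgroup G) : Set G) :=
      le_normalizer_inf le_normalizer (by rw [normalizer_eq_top]; exact le_top)
    have h4 : ∀ b ∈ B, n⁻¹ * b * n ∈ normalizer (Q : Set G) := by
      intro b hb
      refine mem_normalizer_fintype fun q hq => ?_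
      have h5 : n * q * n⁻¹ ∈ B ⊓ (E ⊔ Q) := hQ' ▸ ⟨q, hq, rfl⟩
      have h6 := (mem_normalizer_iff.1 (h3 hb) _).1 h5
      rw [hQ'] at h6
      have := Coprime.mem_map_conj_iff.1 h6
      simpa [mul_assoc] using this
    have h5 := comm_of_conj_mem hME hx hn (h4 x hxB)
    have h6 := comm_of_conj_mem hME hyN (E.mul_mem (E.inv_mem hv) hn)
      (by simpa [mul_assoc] using h4 _ hyB)
    refine ⟨(⟨n, hn, mem_centralizer_zpowers h5⟩, ⟨a⁻¹ * (n⁻¹ * v) * a, ?_,
      mem_centralizer_zpowers ?_⟩), by simp [mul_assoc]⟩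
    · simpa using hEn.conj_mem _ (E.mul_mem (E.inv_mem hn) hv) a⁻¹
    · have h7 : y * (n⁻¹ * v) = (n⁻¹ * v) * y := by
        have := (show Commute y (v⁻¹ * n) from h6).inv_right
        simpa using this.eq
      calc x * (a⁻¹ * (n⁻¹ * v) * a) = a⁻¹ * (y * (n⁻¹ * v)) * a := by rw [hy]; group
        _ = a⁻¹ * (n⁻¹ * v) * a * x := by rw [h7, hy]; group
  choose f hf using key
  have := Nat.card_le_card_of_injective f fun u v e => Subtype.ext (by rw [hf u, hf v, e])
  rw [Nat.card_prod, ← sq] at this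
  omega

end Cfsg.Agent.Flav
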