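import Mathlib
import Cfsg.Agent.Lib.Flav.Rep
import Cfsg.Agent.Lib.Flav.TwoGen
import Cfsg.Agent.Lib.Coprime.Sylow

/-! Fixed points of coprime action: the subgroups `[h, P]` and the central case. -/

set_option autoImplicit false

namespace Cfsg.Agent.Flav

open Subgroup Cfsg.Agent.Core Cfsg.Agent.Mod
open scoped commutatorElement

section Defs

variable {G G' : Type*} [Group G] [Group G']

/-- The subgroup `[h, P]`. -/
def cm (P : Subgroup G) (h : G) : Subgroup G := closure {c | ∃ a ∈ P, c = ⁅h⁻¹, a⁆}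

/-- The subgroup generated by the fixed points in the `[h, P]`. -/
def gfix (P H : Subgroup G) : Subgroup G := ⨆ h : H, cm P h ⊓ centralizer (P : Set G)

variable {P H K : Subgroup G} {h a x : G}

theorem mem_cm (ha : a ∈ P) : ⁅h⁻¹, a⁆ ∈ cm P h := subset_closure ⟨a, ha, rfl⟩

theorem cm_le (hK : ∀ a ∈ P, ⁅h⁻¹, a⁆ ∈ K) : cm P h ≤ K :=
  (closure_le _).2 fun _ ⟨a, ha, e⟩ => e ▸ hK a ha

theorem cm_le_commutator (hh : h ∈ H) : cm P h ≤ ⁅H, P⁆ :=
  cm_le fun _ ha => commutator_mem_commutator (H.inv_mem hh) ha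

theorem map_cm (f : G →* G') : (cm P h).map f = cm (P.map f) (f h) := by
  rw [cm, MonoidHom.map_closure, cm]
  congr 1
  ext c
  constructor
  · rintro ⟨_, ⟨a, ha, rfl⟩, rfl⟩
    exact ⟨f a, ⟨a, ha, rfl⟩, by rw [map_commutatorElement, map_inv]⟩
  · rintro ⟨_, ⟨a, ha, rfl⟩, rfl⟩
    exact ⟨_, ⟨a, ha, rfl⟩, by rw [map_commutatorElement, map_inv]⟩

theorem le_normalizer_cm [Finite G] : P ≤ normalizer (cm P h : Set G) := by
  intro b hb
  refine mem_normalizer_fintype fun n hn => ?_
  have : cm P h ≤ (cm P h).comap (MulAut.conj b).toMonoidHom := cm_le fun a ha => by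
    have := mul_mem (inv_mem (mem_cm (h := h) hb)) (mem_cm (h := h) (P.mul_mem hb ha))
    rw [mem_comap]
    convert this using 1
    simp only [commutatorElement_def, MulEquiv.toMonoidHom_eq_coe, MonoidHom.coe_coe,
      MulAut.conj_apply]
    group
  exact this hn

theorem le_gfix (hh : h ∈ H) : cm P h ⊓ centralizer (P : Set G) ≤ gfix P H :=
  le_iSup (fun h : H => cm P h ⊓ centralizer (P : Set G)) ⟨h, hh⟩

theorem gfix_mono (h : K ≤ H) : gfix P K ≤ gfix P H := iSup_le fun k => le_gfix (h k.2)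

theorem gfix_le : gfix P H ≤ ⁅H, P⁆ ⊓ centralizer (P : Set G) :=
  iSup_le fun h => inf_le_inf_right _ (cm_le_commutator h.2)

theorem map_gfix [Finite G] (f : G →* G') (hP : P ≤ normalizer (H : Set G))
    (hcop : (Nat.card P).Coprime (Nat.card H)) (hs : Group.IsSolvable H) :
    (gfix P H).map f = gfix (P.map f) (H.map f) := by
  have key : ∀ h ∈ H, (cm P h ⊓ centralizer (P : Set G)).map f =
      cm (P.map f) (f h) ⊓ centralizer ((P.map f : Subgroup G') : Set G') := by
    intro h hh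
    have h1 : cm P h ⊓ f.ker ≤ H := inf_le_left.trans
      ((cm_le_commutator hh).trans (Coprime.commutator_le_of_le_normalizer hP))
    rw [Coprime.map_inf_centralizer_eq f le_normalizer_cm (Coprime.coprime_mono hcop le_rfl h1)
      (Or.inr (isSolvable_of_le hs h1)), map_cm]
  rw [gfix, Subgroup.map_iSup]
  refine le_antisymm (iSup_le fun h => ?_) (iSup_le ?_)
  · rw [key h h.2]
    exact le_gfix ⟨h, h.2, rfl⟩
  · rintro ⟨_, h, hh, rfl⟩
    rw [← key h hh]
    exact le_iSup (fun h : H => (cm P h ⊓ centralizer (P : Set G)).map f) ⟨h, hh⟩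

theorem le_normalizer_gfix [Finite G] :
    H ⊓ centralizer (P : Set G) ≤ normalizer (gfix P H : Set G) := by
  intro c hc
  refine mem_normalizer_fintype fun n hn => ?_
  have : gfix P H ≤ (gfix P H).comap (MulAut.conj c).toMonoidHom := iSup_le fun h t ht => by
    refine le_gfix (H.mul_mem (H.mul_mem hc.1 h.2) (H.inv_mem hc.1)) ⟨?_, ?_⟩
    · have h1 : cm P h ≤ (cm P (c * h * c⁻¹)).comap (MulAut.conj c).toMonoidHom :=
        cm_le fun a ha => by
          have h2 := mem_cm (h := c * h * c⁻¹) ha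
          have h3 : a = c * a * c⁻¹ := by rw [← hc.2 a ha]; simp
          rw [mem_comap, map_commutatorElement]
          rw [h3] at h2
          simpa [mul_assoc] using h2
      exact h1 ht.1
    · exact Subgroup.mul_mem _ (Subgroup.mul_mem _ hc.2 ht.2) (Subgroup.inv_mem _ hc.2)
  exact this hn

theorem commutator_zpowers_le [Finite G] (hx : x ∈ normalizer (H : Set G))
    (hK : ∀ g ∈ H, ⁅g⁻¹, x⁆ ∈ K) : ⁅H, zpowers x⁆ ≤ K := by
  have : ∀ n : ℕ, ∀ g ∈ H, ⁅g⁻¹, x ^ n⁆ ∈ K := by
    intro n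
    induction n with
    | zero => simp
    | succ n ih =>
      intro g hg
      have h1 := K.mul_mem (ih g hg)
        (hK _ ((mem_normalizer_iff.1 (pow_mem hx n) g).1 hg))
      convert h1 using 1
      simp only [commutatorElement_def]
      group
  rw [commutator_le]
  intro g hg a ha
  obtain ⟨n, rfl⟩ := (isOfFinOrder_of_finite x).mem_powers_iff_mem_zpowers.2 ha
  simpa using this n g⁻¹ (H.inv_mem hg)

theorem pow_mem_commutator [Finite G] {z : G} (hz : z ∈ centralizer (K : Set G))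
    (hc : z ∈ ⁅K, K⁆) (R : Subgroup G) : z ^ R.relIndex K ∈ ⁅R, R⁆ := by
  rw [← map_subtype_commutator] at hc ⊢
  obtain ⟨y, hy, rfl⟩ := hc
  have hz' : y ∈ center K := mem_center_iff.2 fun g => Subtype.ext (hz g g.2)
  let ϕ : R.subgroupOf K →* Abelianization R := Abelianization.of.comp
    ((K.subtype.comp (R.subgroupOf K).subtype).codRestrict R fun x => x.2)
  have h1 := MonoidHom.transfer_eq_pow ϕ y fun k g _ => by
    rw [mul_assoc, ← mem_center_iff.1 (pow_mem hz' k) g, inv_mul_cancel_left]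
  have h2 := Abelianization.commutator_subset_ker (MonoidHom.transfer ϕ) hy
  rw [MonoidHom.mem_ker] at h2
  exact ⟨_, (QuotientGroup.eq_one_iff _).1 (h1.symm.trans h2), rfl⟩

theorem commutator_expand {A B u v : G} (h1 : ⁅u, B⁆ ∈ center G) (h2 : ⁅u, v⁆ = 1)
    (h3 : ⁅v, A⁻¹⁆ ∈ center G) : ⁅A * u, B * v⁆ = ⁅u, B⁆ * ⁅v, A⁻¹⁆ * ⁅A, B⁆ := by
  rw [mem_center_iff] at h1 h3
  have e1 : u * B = ⁅u, B⁆ * B * u := by rw [commutatorElement_def]; group
  have e2 : u * v * u⁻¹ = v := by rw [commutatorElement_eq_one_iff_mul_comm.1 h2]; group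
  have e3 : v * A⁻¹ * v⁻¹ = ⁅v, A⁻¹⁆ * A⁻¹ := by rw [commutatorElement_def]; group
  generalize ⁅u, B⁆ = c at *
  generalize ⁅v, A⁻¹⁆ = d at *
  calc ⁅A * u, B * v⁆ = A * (u * B) * v * u⁻¹ * A⁻¹ * v⁻¹ * B⁻¹ := by
        rw [commutatorElement_def]; group
    _ = (A * c) * B * (u * v * u⁻¹) * A⁻¹ * v⁻¹ * B⁻¹ := by rw [e1]; group
    _ = c * A * B * (v * A⁻¹ * v⁻¹) * B⁻¹ := by rw [e2, h1]; group
    _ = c * ((A * B) * d) * A⁻¹ * B⁻¹ := by rw [e3]; group
    _ = c * d * ⁅A, B⁆ := by rw [h3, commutatorElement_def]; group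

end Defs

variable {G : Type*} [Group G] [Finite G] {p : ℕ}

/-- A minimal counterexample. -/
structure Cex (p : ℕ) (x : G) (H : Subgroup G) : Prop where
  ord : orderOf x = p
  top : H ⊔ zpowers x = ⊤
  nor : H.Normal
  sol : Group.IsSolvable H
  cop : (Nat.card (zpowers x)).Coprime (Nat.card H)
  com : ⁅H, zpowers x⁆ = H
  sub : ∀ K < H, zpowers x ≤ normalizer (K : Set G) →
    ⁅K, zpowers x⁆ ⊓ centralizer (zpowers x : Set G) ≤ gfix (zpowers x) H
  quo : ∀ V : Subgroup G, V.Normal → V ≠ ⊥ → V ≤ H →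
    H ⊓ centralizer (zpowers x : Set G) ≤ gfix (zpowers x) H ⊔ V
  not_le : ¬ H ⊓ centralizer (zpowers x : Set G) ≤ gfix (zpowers x) H

namespace Cex

variable {x : G} {H : Subgroup G} (h : Cex p x H)
include h

theorem cop' {K : Subgroup G} (hK : K ≤ H) : (Nat.card (zpowers x)).Coprime (Nat.card K) :=
  Coprime.coprime_mono h.cop le_rfl hK

theorem sol' {K : Subgroup G} (hK : K ≤ H) :
    Group.IsSolvable (zpowers x) ∨ Group.IsSolvable K := Or.inr (isSolvable_of_le h.sol hK)

theorem normal_of {N : Subgroup G} (h1 : H ≤ normalizer (N : Set G))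
    (h2 : zpowers x ≤ normalizer (N : Set G)) : N.Normal := by
  rw [normal_iff_top_le_normalizer, ← h.top]
  exact sup_le h1 h2

theorem not_le_of_normal {V : Subgroup G} [hV : V.Normal] (hb : V ≠ ⊥) (hle : V ≤ H) :
    ¬ V ⊓ centralizer (zpowers x : Set G) ≤ gfix (zpowers x) H := by
  intro hVD
  refine h.not_le fun c hc => ?_
  obtain ⟨d, hd, v, hv, rfl⟩ := mem_sup_of_normal_right.1 (h.quo V hV hb hle hc)
  refine mul_mem hd (hVD ⟨hv, ?_⟩)
  simpa using Subgroup.mul_mem _ (Subgroup.inv_mem _ (gfix_le hd).2) hc.2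

theorem center_le : H ⊓ centralizer (H : Set G) ≤ center G := by
  have := h.nor
  have h1 : ⁅H ⊓ centralizer (H : Set G), zpowers x⁆ = ⊥ := by
    by_contra hb
    have h2 : ⁅H ⊓ centralizer (H : Set G), zpowers x⁆ ≤ H ⊓ centralizer (H : Set G) :=
      commutator_le_left _ _
    have : (⁅H ⊓ centralizer (H : Set G), zpowers x⁆).Normal :=
      h.normal_of (Coprime.centralizer_le_normalizer_of_le (h2.trans inf_le_right))
        (le_normalizer_commutator (by rw [normalizer_eq_top]; exact le_top) le_normalizer)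
    refine h.not_le_of_normal hb (h2.trans inf_le_left) ?_
    have h3 := Coprime.centralizer_inf_commutator_eq_bot (A := zpowers x)
      (V := H ⊓ centralizer (H : Set G)) (by rw [normalizer_eq_top]; exact le_top)
      (h.cop' inf_le_left) (isMulCommutative_of_forall fun a ha b hb => hb.2 a ha.1)
    refine le_trans ?_ (h3.le.trans bot_le)
    exact le_inf (le_inf (inf_le_left.trans h2) inf_le_right) inf_le_left
  rw [commutator_eq_bot_iff_le_centralizer] at h1
  rw [← centralizer_univ, ← coe_top, ← h.top, le_centralizer_iff]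
  exact sup_le (le_centralizer_iff.1 inf_le_right) (le_centralizer_iff.1 h1)

theorem eq_one_of_mem_center {z : G} (hz : z ∈ center G) (hD : z ∈ gfix (zpowers x) H) :
    z = 1 := by
  by_contra h1
  have := normal_of_le_center (zpowers_le.2 hz)
  refine h.not_le_of_normal (V := zpowers z) (by rwa [Ne, zpowers_eq_bot])
    (zpowers_le.2 (h.com ▸ (gfix_le hD).1)) (inf_le_left.trans (zpowers_le.2 hD))

theorem eq_of_mem_cm {g g' t t' : G} (hg : g ∈ H) (hg' : g' ∈ H) (ht : t ∈ cm (zpowers x) g)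
    (ht' : t' ∈ cm (zpowers x) g') (hz : t⁻¹ * t' ∈ center G) : t' = t := by
  have hzC : center G ≤ centralizer (zpowers x : Set G) := center_le_centralizer _
  have hL : cm (zpowers x) g ≤ H := (cm_le_commutator hg).trans h.com.le
  have h1 : ⁅cm (zpowers x) g ⊓ (cm (zpowers x) g' ⊔ center G), zpowers x⁆ ≤
      cm (zpowers x) g ⊓ (cm (zpowers x) g' ⊔ center G) ⊓ cm (zpowers x) g' := by
    refine le_inf (Coprime.commutator_le_of_le_normalizer (le_normalizer_inf le_normalizer_cm
      (le_normalizer_sup le_normalizer_cm (by rw [normalizer_eq_top]; exact le_top)))) ?_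
    rw [commutator_le]
    intro m hm a ha
    obtain ⟨l, hl, z, hz, rfl⟩ := mem_sup_of_normal_right.1 hm.2
    have := commutator_mul_center (a := l) (b := a) hz (one_mem _)
    rw [mul_one] at this
    rw [this]
    exact Coprime.commutator_le_of_le_normalizer le_normalizer_cm (commutator_mem_commutator hl ha)
  have h2 : t ∈ cm (zpowers x) g' ⊔ center G := by
    simpa using mul_mem (mem_sup_left ht') (mem_sup_right (inv_mem hz))
  obtain ⟨c, hc, n, hn, rfl⟩ := Coprime.exists_centralizer_mul inf_le_left h1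
    (h.cop' (inf_le_left.trans (inf_le_left.trans hL)))
    (h.sol' (inf_le_left.trans (inf_le_left.trans hL))) (g := t) ⟨ht, h2⟩
  obtain ⟨l, hl, z, hz', rfl⟩ := mem_sup_of_normal_right.1 hc.1.2
  have h3 : l ∈ gfix (zpowers x) H := le_gfix hg' ⟨hl, by
    simpa using Subgroup.mul_mem _ hc.2 (Subgroup.inv_mem _ (hzC hz'))⟩
  have h4 : z = 1 := h.eq_one_of_mem_center hz' (by
    simpa using mul_mem (inv_mem h3) (le_gfix hg ⟨hc.1.1, hc.2⟩))
  subst h4
  have h5 := h.eq_one_of_mem_center hz (le_gfix hg'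
    ⟨Subgroup.mul_mem _ (Subgroup.inv_mem _ (Subgroup.mul_mem _
      (Subgroup.mul_mem _ hl (one_mem _)) hn.2)) ht', hzC hz⟩)
  exact (inv_mul_eq_one.1 h5).symm

end Cex

end Cfsg.Agent.Flav
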