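import Mathlib
import Cfsg.Agent.Lib.Flav.FixA

/-! Fixed points of coprime action: the central case. -/

set_option autoImplicit false

namespace Cfsg.Agent.Flav

open Subgroup Cfsg.Agent.Core Cfsg.Agent.Mod
open scoped commutatorElement

variable {G : Type*} [Group G] [Finite G] {p : ℕ}

namespace Cex

variable {x : G} {H : Subgroup G} (h : Cex p x H)
include h

theorem inf_le_commutator : H ⊓ centralizer (zpowers x : Set G) ≤ ⁅H, H⁆ := by
  have := h.nor
  set π := QuotientGroup.mk' ⁅H, H⁆ with hπ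
  have h1 := Coprime.centralizer_inf_commutator_eq_bot (A := (zpowers x).map π) (V := H.map π)
    ((map_mono (by rw [normalizer_eq_top]; exact le_top)).trans (le_normalizer_map π))
    ((h.cop.coprime_dvd_left (card_map_dvd _ π)).coprime_dvd_right (card_map_dvd _ π)) (by
      rw [← le_centralizer_iff_isMulCommutative, ← commutator_eq_bot_iff_le_centralizer,
        ← map_commutator, map_mk_eq_bot_iff])
  rw [← map_commutator, h.com, inf_right_comm, inf_idem] at h1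
  rw [← map_mk_eq_bot_iff, eq_bot_iff, ← h1]
  refine le_inf (map_mono inf_le_left) ((map_mono inf_le_right).trans (map_centralizer_le_centralizer_image _ π))

theorem isNilpotent_of_center (hb : H ⊓ centralizer (H : Set G) ≠ ⊥) : Group.IsNilpotent H := by
  have := h.nor
  obtain ⟨r, hr, hd⟩ := exists_prime_dvd_card_of_ne_bot hb
  have := Fact.mk hr
  obtain ⟨z, hz, ho⟩ := exists_mem_orderOf_eq_of_dvd_card hd
  have hzZ := h.center_le hz
  obtain ⟨R, hR, hPR⟩ := Coprime.exists_invariant_sylow r (A := zpowers x) (G := H)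
    (by rw [normalizer_eq_top]; exact le_top) h.cop (h.sol' le_rfl)
  rcases hR.1.lt_or_eq with hlt | rfl
  swap
  · exact hR.2.1.isNilpotent
  exfalso
  have h1 := pow_mem_commutator hz.2
    (h.inf_le_commutator ⟨hz.1, center_le_centralizer _ hzZ⟩) R
  have h2 : z ^ R.relIndex H ≠ 1 := fun e => hR.2.2 (ho ▸ orderOf_dvd_of_pow_eq_one e)
  refine h2 (h.eq_one_of_mem_center (pow_mem hzZ _) ?_)
  have hz' : z ^ R.relIndex H ∈ centralizer (zpowers x : Set G) :=
    center_le_centralizer _ (pow_mem hzZ _)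
  generalize z ^ R.relIndex H = y at h1 hz'
  have h3 := Coprime.centralizer_sup_commutator hPR (h.cop' hR.1) (h.sol' hR.1)
  have h4 : ⁅R, zpowers x⁆ ≤ R := Coprime.commutator_le_of_le_normalizer hPR
  have := Core.normal_subgroupOf_of_le_normalizer (H := ⁅R, zpowers x⁆) (K := R)
    (normalizer_commutator_ge_left _ _)
  set π := QuotientGroup.mk' (⁅R, zpowers x⁆.subgroupOf R) with hπ
  have h5 : im π R = im π (R ⊓ centralizer (zpowers x : Set G)) := by
    have := im_sup π (inf_le_left : R ⊓ centralizer (zpowers x : Set G) ≤ R) h4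
    rwa [h3, show im π ⁅R, zpowers x⁆ = ⊥ from (map_mk_eq_bot_iff _ _).2 le_rfl,
      sup_bot_eq] at this
  have hyR : y ∈ R := commutator_le_self R h1
  have h6 : π ⟨y, hyR⟩ ∈ im π ⁅R, R⁆ := mem_im π h1
  rw [im_commutator π le_rfl le_rfl, h5, ← im_commutator π inf_le_left inf_le_left] at h6
  obtain ⟨d, hd, e⟩ := h6
  have h7 : ⁅R ⊓ centralizer (zpowers x : Set G), R ⊓ centralizer (zpowers x : Set G)⁆ ≤
      gfix (zpowers x) H := by
    have h8 := (inf_le_inf_right _ hR.1).trans (h.quo _ inferInstance hb inf_le_left)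
    rw [commutator_le]
    intro a ha b hb
    obtain ⟨a, ha', u, hu, rfl⟩ := mem_sup_of_normal_right.1 (h8 ha)
    obtain ⟨b, hb', v, hv, rfl⟩ := mem_sup_of_normal_right.1 (h8 hb)
    rw [commutator_mul_center (h.center_le hu) (h.center_le hv), commutatorElement_def]
    exact mul_mem (mul_mem (mul_mem ha' hb') (inv_mem ha')) (inv_mem hb')
  have h8 : (d : G)⁻¹ * y ∈ ⁅R, zpowers x⁆ := (QuotientGroup.eq (a := d) (b := ⟨y, hyR⟩)).1 e
  have h9 := h.sub R hlt hPR ⟨h8, Subgroup.mul_mem _ (Subgroup.inv_mem _ (gfix_le (h7 hd)).2) hz'⟩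
  simpa using mul_mem (h7 hd) h9

theorem mem_center_of_commutator {w : G} (hw : w ∈ H) (h1 : ∀ g ∈ H, ⁅w, g⁆ ∈ center G)
    (h2 : ∀ a ∈ zpowers x, ⁅w, a⁆ ∈ center G) : w ∈ center G := by
  refine h.center_le ⟨hw, ?_⟩
  set π := QuotientGroup.mk' (center G) with hπ
  have key : ∀ K : Subgroup G, (∀ g ∈ K, ⁅w, g⁆ ∈ center G) → ⁅zpowers w, K⁆ ≤ center G := by
    intro K hK
    rw [← map_mk_eq_bot_iff, map_commutator, commutator_eq_bot_iff_le_centralizer,
      MonoidHom.map_zpowers, zpowers_le]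
    rintro _ ⟨g, hg, rfl⟩
    symm
    rw [← commutatorElement_eq_one_iff_mul_comm, ← map_commutatorElement]
    exact (QuotientGroup.eq_one_iff _).2 (hK g hg)
  have h3 := commutator_commutator_eq_bot_of_rotate (H₁ := H) (H₂ := zpowers x) (H₃ := zpowers w)
    (by
      rw [commutator_eq_bot_iff_le_centralizer, commutator_comm]
      exact (key _ h2).trans (center_le_centralizer _))
    (by
      rw [commutator_eq_bot_iff_le_centralizer]
      exact (key _ h1).trans (center_le_centralizer _))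
  rw [h.com, commutator_eq_bot_iff_le_centralizer] at h3
  exact le_centralizer_iff.1 h3 (mem_zpowers w)

theorem center_eq_bot (hp : p.Prime) (hp2 : p ≠ 2) : H ⊓ centralizer (H : Set G) = ⊥ := by
  have hH := h.nor
  by_contra hb
  have hnil := h.isNilpotent_of_center hb
  set π := QuotientGroup.mk' (center G) with hπ
  have hπ1 : ∀ g, π g = 1 ↔ g ∈ center G := fun g => QuotientGroup.eq_one_iff g
  have h0 : H.map π ≠ ⊥ := by
    rw [Ne, map_mk_eq_bot_iff]
    intro e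
    have h1 := h.com
    rw [commutator_eq_bot_iff_le_centralizer.2 (e.trans (center_le_centralizer _))] at h1
    exact hb (by rw [← h1, bot_inf_eq])
  obtain ⟨_, ⟨⟨w, hw, rfl⟩, hwc⟩, hw1⟩ := (Subgroup.bot_or_exists_ne_one _).resolve_left
    (inf_centralizer_ne_bot_of_isNilpotent (isNilpotent_map hnil π) le_rfl le_normalizer h0)
  set W := H ⊓ (centralizer ((H.map π : Subgroup _) : Set _)).comap π with hW
  have hWn : W.Normal := by
    have : (H.map π).Normal := hH.map π (QuotientGroup.mk'_surjective _)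
    infer_instance
  have hWc : ∀ u ∈ W, ∀ g ∈ H, ⁅u, g⁆ ∈ center G := by
    intro u hu g hg
    rw [← hπ1, map_commutatorElement, commutatorElement_eq_one_iff_mul_comm]
    exact (hu.2 _ ⟨g, hg, rfl⟩).symm
  have hwW : w ∈ W := ⟨hw, hwc⟩
  set u := ⁅w⁻¹, x⁆ with hu
  have huW : u ∈ W := commutator_le_left W ⊤ (commutator_mem_commutator (inv_mem hwW) trivial)
  have hvW : (x⁻¹ * u * x)⁻¹ ∈ W := inv_mem (by simpa using hWn.conj_mem u huW x⁻¹)
  have hx := mem_zpowers x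
  have key : ∀ g ∈ H, ⁅⁅g⁻¹, x⁆ * u, (x⁻¹ * ⁅g⁻¹, x⁆ * x)⁻¹ * (x⁻¹ * u * x)⁻¹⁆ =
      ⁅⁅g⁻¹, x⁆, (x⁻¹ * ⁅g⁻¹, x⁆ * x)⁻¹⁆ := by
    intro g hg
    have hA : ⁅g⁻¹, x⁆ ∈ H := commutator_le_left H ⊤ (commutator_mem_commutator (inv_mem hg) trivial)
    have hB : (x⁻¹ * ⁅g⁻¹, x⁆ * x)⁻¹ ∈ H := inv_mem (by simpa using hH.conj_mem _ hA x⁻¹)
    have e0 : ∀ g : G, (x⁻¹ * ⁅g⁻¹, x⁆ * x)⁻¹ = ⁅g⁻¹, x⁻¹⁆ := fun g => by
      simp only [commutatorElement_def]; group
    have hz : ∀ a : G, ⁅g⁻¹, a⁆ ∈ H → ∃ z ∈ center G, ⁅(g * w)⁻¹, a⁆ = ⁅g⁻¹, a⁆ * ⁅w⁻¹, a⁆ * z := by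
      intro a ha
      refine ⟨⁅w⁻¹, ⁅g⁻¹, a⁆⁆, hWc _ (inv_mem hwW) _ ha, ?_⟩
      rw [mem_center_iff.1 (hWc _ (inv_mem hwW) _ ha)]
      simp only [commutatorElement_def]; group
    obtain ⟨z₁, hz₁, e1⟩ := hz x hA
    obtain ⟨z₂, hz₂, e2⟩ := hz x⁻¹ (e0 g ▸ hB)
    have e3 := commutator_mul_center (a := ⁅g⁻¹, x⁆ * u) (b := ⁅g⁻¹, x⁻¹⁆ * ⁅w⁻¹, x⁻¹⁆) hz₁ hz₂
    have hc : ∀ {L : Subgroup G} {a b : G}, a ∈ L → b ∈ L → ⁅a, b⁆ ∈ L := fun ha hb =>
      mul_mem (mul_mem (mul_mem ha hb) (inv_mem ha)) (inv_mem hb)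
    rw [e0 g, hu, e0 w]
    refine h.eq_of_mem_cm hg (H.mul_mem hg hw) (hc (mem_cm hx) (mem_cm (inv_mem hx))) ?_ ?_
    · rw [← hu, ← e3, ← e1, ← e2]
      exact hc (mem_cm hx) (mem_cm (inv_mem hx))
    · rw [← hπ1, map_mul, map_inv, inv_mul_eq_one, ← e0 w, ← hu]
      simp only [map_commutatorElement π _ (_ * _), map_commutatorElement π _ ⁅_, _⁆, map_mul]
      have c1 := mem_centralizer_iff.1 (mem_comap.1 (mem_inf.1 huW).2)
      have c2 := mem_centralizer_iff.1 (mem_comap.1 (mem_inf.1 hvW).2)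
      have a1 := c1 _ ⟨_, hA, rfl⟩
      have a2 := c1 _ ⟨_, e0 g ▸ hB, rfl⟩
      have a3 := c2 _ ⟨_, hA, rfl⟩
      have a4 := c2 _ ⟨_, e0 g ▸ hB, rfl⟩
      have a5 := c2 _ ⟨_, huW.1, rfl⟩
      generalize π ⁅g⁻¹, x⁆ = A at *
      generalize π ⁅g⁻¹, x⁻¹⁆ = B at *
      generalize π (x⁻¹ * u * x)⁻¹ = v at *
      generalize π u = u at *
      have b1 : Commute A u := a1
      have b2 : Commute B u := a2
      have b3 : Commute A v := a3
      have b5 : Commute u v := a5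
      simp only [commutatorElement_def, mul_inv_rev]
      calc A * B * A⁻¹ * B⁻¹ = A * B * (u * v * u⁻¹) * (v⁻¹ * A⁻¹) * B⁻¹ := by
            rw [b5.eq]; group
        _ = A * (B * u) * v * u⁻¹ * (A⁻¹ * v⁻¹) * B⁻¹ := by
            rw [b3.inv_inv.eq]; group
        _ = _ := by rw [b2.eq]; group
  have h1 : ⁅u, (x⁻¹ * u * x)⁻¹⁆ = 1 := by simpa using key 1 H.one_mem
  have h2 : (x⁻¹ * u * x)⁻¹ * (x * u * x⁻¹) ∈ centralizer (H : Set G) := by
    rw [← h.com, ← zpowers_le, le_centralizer_iff]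
    refine commutator_zpowers_le (by rw [normalizer_eq_top]; trivial) fun g hg => ?_
    have hA : ⁅g⁻¹, x⁆ ∈ H := commutator_le_left H ⊤ (commutator_mem_commutator (inv_mem hg) trivial)
    have hB : (x⁻¹ * ⁅g⁻¹, x⁆ * x)⁻¹ ∈ H := inv_mem (by simpa using hH.conj_mem _ hA x⁻¹)
    have h3 := key g hg
    have c1 := hWc u huW _ hB
    have c2 := hWc _ hvW _ (inv_mem hA)
    rw [commutator_expand c1 h1 c2, mul_eq_right] at h3
    refine mem_centralizer_zpowers ?_
    generalize ⁅g⁻¹, x⁆ = A at *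
    have c3 : ⁅u, (x⁻¹ * A * x)⁻¹⁆ = ⁅x * u * x⁻¹, A⁻¹⁆ := by
      have := mem_center_iff.1 c1 x
      rw [← mul_inv_eq_iff_eq_mul] at this
      rw [← this]
      simp only [commutatorElement_def]; group
    rw [c3] at h3 c1
    generalize x * u * x⁻¹ = s at *
    generalize (x⁻¹ * u * x)⁻¹ = t at *
    have c4 : ⁅t * s, A⁻¹⁆ = 1 := by
      calc ⁅t * s, A⁻¹⁆ = t * ⁅s, A⁻¹⁆ * t⁻¹ * ⁅t, A⁻¹⁆ := by
            simp only [commutatorElement_def]; group
        _ = 1 := by rw [mem_center_iff.1 c1, ← h3]; group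
    exact (Commute.inv_right_iff.1 (commutatorElement_eq_one_iff_commute.1 c4)).eq
  have h3 := h.center_le ⟨mul_mem hvW.1 (hH.conj_mem _ huW.1 x), h2⟩
  have hfix : ∀ a ∈ W, π (x ^ 2) * π a = π a * π (x ^ 2) → a ∈ center G := by
    intro a ha e
    refine h.mem_center_of_commutator ha.1 (hWc a ha) fun b hb => ?_
    have h4 : x ∈ zpowers (x ^ 2) := mem_zpowers_pow_iff.2 (by
      rw [h.ord]
      exact ((Nat.coprime_primes Nat.prime_two hp).2 hp2.symm))
    obtain ⟨n, rfl⟩ := zpowers_le.2 h4 hb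
    rw [← hπ1, map_commutatorElement, commutatorElement_eq_one_iff_mul_comm, map_zpow]
    exact (Commute.zpow_left e n).eq.symm
  have h4 := hfix u huW (by
    rw [← hπ1] at h3
    simp only [map_mul, map_inv, map_pow] at h3 ⊢
    rw [inv_mul_eq_one] at h3
    calc π x ^ 2 * π u = π x * (π x * π u * (π x)⁻¹) * π x := by rw [sq]; group
      _ = _ := by rw [← h3, sq]; group)
  refine hw1 ((hπ1 w).2 (hfix w hwW ?_))
  rw [← hπ1, hu, map_commutatorElement, commutatorElement_eq_one_iff_commute, map_inv,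
    Commute.inv_left_iff] at h4
  rw [map_pow]
  exact (h4.symm.pow_left 2).eq

end Cex

end Cfsg.Agent.Flav
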