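import Mathlib
import Cfsg.Agent.Lib.Flav.FixB
import Cfsg.Agent.Lib.Mod.GroupForm

/-! Fixed points of coprime action (Flavell). -/

set_option autoImplicit false

namespace Cfsg.Agent.Flav

open Subgroup Cfsg.Agent.Core Cfsg.Agent.Mod
open scoped commutatorElement

universe u

/-- The elements centralizing `V / U`. -/
def stabMod {G : Type*} [Group G] (V U : Subgroup G) [hV : V.Normal] (hU : U ≤ V) :
    Subgroup G where
  carrier := {g | ∀ v ∈ V, ⁅g, v⁆ ∈ U}
  one_mem' := fun v _ => by simp
  mul_mem' := fun {g h} hg hh v hv => by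
    have := U.mul_mem (U.mul_mem (hg _ (hU (hh v hv))) (hh v hv)) (hg v hv)
    convert this using 1
    simp only [commutatorElement_def]; group
  inv_mem' := fun {g} hg v hv => by
    have := U.inv_mem (hg _ (hV.conj_mem v hv g⁻¹))
    convert this using 1
    simp only [commutatorElement_def]; group

theorem le_stabMod {G : Type*} [Group G] {V U K : Subgroup G} [V.Normal] {hU : U ≤ V} :
    K ≤ stabMod V U hU ↔ ⁅K, V⁆ ≤ U := commutator_le.symm

variable {G : Type u} [Group G] [Finite G] {p : ℕ}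

theorem Cex.false {x : G} {H : Subgroup G} (h : Cex p x H) (hp : p.Prime) (hp2 : p ≠ 2) :
    False := by
  have hH := h.nor
  have hZ := h.center_eq_bot hp hp2
  have hHb : H ≠ ⊥ := fun e => h.not_le (by rw [e]; exact inf_le_left.trans bot_le)
  obtain ⟨V, hV, hVH⟩ := exists_isMinNormal_le hHb
  have hVn := hV.normal
  obtain ⟨r, hr, hVe⟩ := hV.exists_isElementaryAbelian (isSolvable_of_le h.sol hVH)
  have := Fact.mk hr
  have hVr := isPGroup_of_isElementaryAbelian hVe
  have htop : ∀ (K N : Subgroup G) [N.Normal], K ≤ normalizer (N : Set G) := fun K N _ => by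
    rw [normalizer_eq_top]; exact le_top
  set P := zpowers x with hP
  set D := gfix P H with hD
  have hDC : D ≤ H ⊓ centralizer (P : Set G) := h.com ▸ gfix_le
  have hVP : ⁅V, P⁆ ≤ V := commutator_le_left _ _
  have hU : V ⊓ D ⊔ ⁅V, P⁆ ≤ V := sup_le inf_le_left hVP
  have hVV : ∀ U ≤ V, V ≤ normalizer (U : Set G) := fun U hU =>
    (le_centralizer_iff_isMulCommutative.2 hVe.1).trans
      ((centralizer_le hU).trans (centralizer_le_normalizer _))
  have hUlt : V ⊓ D ⊔ ⁅V, P⁆ < V := by
    refine lt_of_le_of_ne hU fun e => h.not_le_of_normal hV.ne_bot hVH ?_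
    have h1 := sup_inf_assoc_of_le_normalizer (A := V ⊓ D) (N := ⁅V, P⁆)
      (B := V ⊓ centralizer (P : Set G)) (inf_le_left.trans (hVV _ hVP))
      (inf_le_inf_left _ (hDC.trans inf_le_right))
    rw [e, inf_comm ⁅V, P⁆, Coprime.centralizer_inf_commutator_eq_bot (htop _ _) (h.cop' hVH) hVe.1,
      sup_bot_eq, ← inf_assoc, inf_idem] at h1
    exact h1.le.trans inf_le_right
  set T := stabMod V _ hU with hT
  have hVT : V ≤ T := le_stabMod.2 (by
    rw [commutator_eq_bot_iff_le_centralizer.2 (le_centralizer_iff_isMulCommutative.2 hVe.1)]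
    exact bot_le)
  have hDT : D ≤ T := by
    intro d hd v hv
    obtain ⟨c, hc, m, hm, rfl⟩ := Coprime.exists_centralizer_mul hVP le_rfl
      (h.cop' (hVP.trans hVH)) (h.sol' (hVP.trans hVH)) hv
    have h1 : ⁅d, c⁆ ∈ V ⊓ D := by
      refine ⟨commutator_le_right D V (commutator_mem_commutator hd hc.1), ?_⟩
      have := D.mul_mem hd ((mem_normalizer_iff.1 (le_normalizer_gfix ⟨hVH hc.1, hc.2⟩) _).1
        (D.inv_mem hd))
      simpa [commutatorElement_def, mul_assoc] using this
    have h2 : ⁅d, m⁆ ∈ ⁅V, P⁆ := le_normalizer_iff_commutator_le_right.1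
      (le_normalizer_commutator (htop D V)
        ((hDC.trans inf_le_right).trans (centralizer_le_normalizer _)))
      (commutator_mem_commutator hd hm)
    have := mul_mem (mem_sup_left (T := ⁅V, P⁆) h1)
      (mem_sup_right ((mem_normalizer_iff.1 (hVV _ hVP hc.1) _).1 h2))
    convert this using 1
    simp only [commutatorElement_def]; group
  have hCT : H ⊓ centralizer (P : Set G) ≤ T :=
    (h.quo V hVn hV.ne_bot hVH).trans (sup_le hDT hVT)
  have hKT : ∀ K ≤ H, P ≤ normalizer (K : Set G) → K ⊔ V ≠ H → K ≤ T := by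
    intro K hK hPK hne
    have h1 := h.sub (K ⊔ V) (lt_of_le_of_ne (sup_le hK hVH) hne)
      (le_normalizer_sup hPK (htop _ _))
    have h2 : ⁅⁅K, P⁆, V⁆ ≤ V := commutator_le_right _ _
    have h3 : ⁅⁅K, P⁆, V⁆ ≤ ⁅K ⊔ V, P⁆ := (commutator_mono (commutator_mono le_sup_left le_rfl)
      le_sup_right).trans (le_normalizer_iff_commutator_le_left.1 (normalizer_commutator_ge_left _ _))
    have h4 := Coprime.centralizer_sup_commutator (A := P) (G := ⁅⁅K, P⁆, V⁆)
      (le_normalizer_commutator (normalizer_commutator_ge_right _ _) (htop _ _))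
      (h.cop' (h2.trans hVH)) (h.sol' (h2.trans hVH))
    rw [← Coprime.centralizer_sup_commutator hPK (h.cop' hK) (h.sol' hK)]
    refine sup_le ((inf_le_inf_right _ hK).trans hCT) (le_stabMod.2 ?_)
    rw [← h4]
    exact sup_le_sup (le_inf (inf_le_left.trans h2) ((inf_le_inf_right _ h3).trans h1))
      (commutator_mono h2 le_rfl)
  have hNT : ∀ N : Subgroup G, N.Normal → N ≤ T → N ≤ centralizer (V : Set G) := by
    intro N _ hN
    rw [← commutator_eq_bot_iff_le_centralizer]
    exact hV.eq_bot_of_lt ((le_stabMod.1 hN).trans_lt hUlt)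
  have hHV : ¬ V ≤ centralizer (H : Set G) := fun e =>
    hV.ne_bot (eq_bot_iff.2 (hZ ▸ le_inf hVH e))
  obtain ⟨s, hs, R, hR, hPR, hRT⟩ : ∃ s : ℕ, s.Prime ∧ ∃ R, Coprime.IsSylowIn s R H ∧
      P ≤ normalizer (R : Set G) ∧ ¬ R ≤ T := by
    by_contra hcon
    push Not at hcon
    refine hHV (le_centralizer_iff.1 (hNT H hH (Coprime.le_of_forall_isSylowIn fun s hs _ => ?_)))
    have := Fact.mk hs
    obtain ⟨R, hR, hPR⟩ := Coprime.exists_invariant_sylow s (htop P H) h.cop (h.sol' le_rfl)
    exact ⟨R, hR, hcon s hs R hR hPR⟩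
  have := Fact.mk hs
  have hRV : R ⊔ V = H := by
    by_contra hne
    exact hRT (hKT R hR.1 hPR hne)
  have hsr : r ≠ s := by
    rintro rfl
    refine hHV (hV.le_centralizer_of_isNilpotent ?_)
    rw [← hRV]
    exact (IsPGroup.to_sup_of_normal_right hR.2.1 hVr).isNilpotent
  have hcop : (Nat.card V).Coprime (Nat.card R) := coprime_card_of_isPGroup hsr hVr hR.2.1
  have hVR : V ⊓ R = ⊥ := inf_eq_bot_of_coprime_card hcop
  have hmax : ∀ K ≤ R, P ≤ normalizer (K : Set G) → ¬ K ≤ T → K = R := by
    intro K hK hPK hKT'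
    have h1 : K ⊔ V = H := by
      by_contra hne
      exact hKT' (hKT K (hK.trans hR.1) hPK hne)
    have h2 := sup_inf_assoc_of_le_normalizer (htop K V) hK
    rw [h1, hVR, sup_bot_eq, inf_eq_right.2 hR.1] at h2
    exact h2.symm
  have hRP : ⁅R, P⁆ = R := by
    refine hmax _ (Coprime.commutator_le_of_le_normalizer hPR) (normalizer_commutator_ge_right _ _)
      fun e => hRT ?_
    rw [← Coprime.centralizer_sup_commutator hPR (h.cop' hR.1) (h.sol' hR.1)]
    exact sup_le ((inf_le_inf_right _ hR.1).trans hCT) e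
  have hRb : R ≠ ⊥ := fun e => hRT (e ▸ bot_le)
  have hRlt : R < H := lt_of_le_of_ne hR.1 fun e =>
    hV.ne_bot (by rw [← hVR, e, inf_eq_left.2 hVH])
  have hRC : R ⊓ centralizer (V : Set G) = ⊥ := by
    by_contra hb
    have : (R ⊓ centralizer (V : Set G)).Normal := h.normal_of
      (hRV ▸ sup_le (le_normalizer_inf le_normalizer (htop _ _))
        (Coprime.centralizer_le_normalizer_of_le inf_le_right))
      (le_normalizer_inf hPR (htop _ _))
    refine h.not_le_of_normal hb (inf_le_left.trans hR.1) (le_trans ?_ (h.sub R hRlt hPR))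
    rw [hRP]
    exact inf_le_inf_right _ inf_le_left
  have hRc : IsMulCommutative R := by
    have h1 := commutator_lt_of_isSolvable (isSolvable_of_le h.sol hR.1) hRb
    have h2 : ⁅R, R⁆ ≤ T := by
      by_contra e
      exact h1.ne (hmax _ h1.le (le_normalizer_commutator hPR hPR) e)
    have h3 := hNT (⁅R, R⁆ ⊔ V) (h.normal_of
      (hRV ▸ sup_le (le_normalizer_sup (normalizer_commutator_ge_left _ _) (htop _ _))
        (le_sup_right.trans le_normalizer))
      (le_normalizer_sup (le_normalizer_commutator hPR hPR) (htop _ _))) (sup_le h2 hVT)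
    rw [← le_centralizer_iff_isMulCommutative, ← commutator_eq_bot_iff_le_centralizer, eq_bot_iff,
      ← hRC]
    exact le_inf h1.le (le_sup_left.trans h3)
  have hRCP : R ⊓ centralizer (P : Set G) = ⊥ := by
    have := Coprime.centralizer_inf_commutator_eq_bot hPR (h.cop' hR.1) hRc
    rwa [hRP, inf_right_comm, inf_idem] at this
  have hVCR : V ⊓ centralizer (R : Set G) = ⊥ := by
    refine (hV.eq_bot_or_eq _ (h.normal_of
      (hRV ▸ sup_le (Coprime.centralizer_le_normalizer_of_le inf_le_right) (hVV _ inf_le_left))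
      (le_normalizer_inf (htop _ _) (le_normalizer_centralizer hPR))) inf_le_left).resolve_right
      fun e => hRb ?_
    rw [← hRC, eq_comm, inf_eq_left]
    exact le_centralizer_iff.1 (inf_eq_left.1 e)
  have hcard := card_eq_pow_of_fpf hr hVe (isSolvable_of_le h.sol hR.1)
    (fun hd => by
      have h1 : r ∣ Nat.card V := hVr.card_eq_or_dvd.resolve_left fun e => hV.ne_bot (card_eq_one.1 e)
      exact hr.one_lt.ne' (Nat.eq_one_of_dvd_coprimes hcop h1 hd))
    (htop R V) (htop P V) hPR (fun a ha ha1 g hg e => by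
      have := Fact.mk hp
      rw [← mem_bot, ← hRCP]
      refine ⟨hg, ?_⟩
      have h1 : zpowers a = P := by
        refine eq_of_le_of_card_eq (zpowers_le.2 ha) ?_
        have h3 : Nat.card (zpowers a) ∣ p := by
          rw [← h.ord, ← Nat.card_zpowers x]
          exact card_dvd_of_le (zpowers_le.2 ha)
        rcases (Nat.dvd_prime hp).1 h3 with h4 | h4
        · rw [card_eq_one, zpowers_eq_bot] at h4
          exact absurd h4 ha1
        · rw [h4, hP, Nat.card_zpowers, h.ord]
      rw [← h1]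
      exact mem_centralizer_zpowers e) hVCR
  rw [hP, Nat.card_zpowers, h.ord] at hcard
  have hb : Nat.card ↥(V ⊓ centralizer (zpowers x : Set G)) ^ 2 < Nat.card V := by
    have h1 : 1 < Nat.card V := (one_lt_card_iff_ne_bot V).2 hV.ne_bot
    rw [hcard] at h1 ⊢
    exact Nat.pow_lt_pow_right ((Nat.one_lt_pow_iff hp.ne_zero).1 h1)
      (lt_of_le_of_ne hp.two_le hp2.symm)
  obtain ⟨g, hg, hgT⟩ : ∃ g ∈ R, ⁅g⁻¹, x⁆ ∉ T := by
    by_contra hcon
    push Not at hcon
    exact hRT (hRP ▸ commutator_zpowers_le (hPR (mem_zpowers x)) hcon)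
  have hcm : cm P g = R := hmax _ ((cm_le_commutator hg).trans hRP.le) le_normalizer_cm
    fun e => hgT (e (mem_cm (mem_zpowers x)))
  obtain ⟨v, hv, hgen⟩ := two_gen hV hVe.1 hcop hVCR (x := x) (a := g⁻¹) (hPR (mem_zpowers x))
    (le_normalizer (R.inv_mem hg)) (by
      rw [eq_top_iff, ← h.top, ← hRV, ← hcm]
      refine sup_le (sup_le (le_sup_of_le_left (cm_le ?_)) le_sup_right)
        (le_sup_of_le_left le_sup_left)
      rintro _ ⟨n, rfl⟩
      refine mul_mem (mem_sup_right ⟨n, ?_⟩) (mem_sup_left (inv_mem ⟨n, rfl⟩))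
      exact conj_zpow) hb
  have hh : g * v⁻¹ ∈ H := H.mul_mem (hR.1 hg) (H.inv_mem (hVH hv))
  have h1 : P ⊔ cm P (g * v⁻¹) = ⊤ := by
    rw [eq_top_iff, ← hgen]
    refine sup_le le_sup_left (zpowers_le.2 ?_)
    have := mul_mem (mem_sup_right (S := P) (mem_cm (h := g * v⁻¹) (mem_zpowers x)))
      (mem_sup_left (mem_zpowers x))
    convert this using 1
    simp only [commutatorElement_def]; group
  have h2 := sup_inf_eq_inf_sup_of_le_normalizer (le_normalizer_cm (P := P) (h := g * v⁻¹))
    ((cm_le_commutator hh).trans h.com.le)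
  rw [h1, top_inf_eq, inf_eq_bot_of_coprime_card h.cop, bot_sup_eq] at h2
  refine h.not_le (le_trans ?_ (le_gfix hh))
  rw [← h2]

theorem fixed_le (hp : p.Prime) (hp2 : p ≠ 2) (n : ℕ) : ∀ (G : Type u) [Group G] [Finite G]
    (H : Subgroup G) (x : G), Nat.card H = n → x ^ p = 1 → Group.IsSolvable H →
    (Nat.card (zpowers x)).Coprime (Nat.card H) → zpowers x ≤ normalizer (H : Set G) →
    ⁅H, zpowers x⁆ ⊓ centralizer (zpowers x : Set G) ≤ gfix (zpowers x) H := by
  induction n using Nat.strong_induction_on with | _ n ih => ?_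
  have hmap : ∀ {G G' : Type u} [Group G] [Group G'] [Finite G] (f : G →* G') {H : Subgroup G}
      {x : G}, Group.IsSolvable H → (Nat.card (zpowers x)).Coprime (Nat.card H) →
      zpowers x ≤ normalizer (H : Set G) →
      (⁅H, zpowers x⁆ ⊓ centralizer (zpowers x : Set G)).map f =
        ⁅H.map f, zpowers (f x)⁆ ⊓ centralizer (zpowers (f x) : Set G') := by
    intro G G' _ _ _ f H x hs hc hn
    have h1 : ⁅H, zpowers x⁆ ⊓ f.ker ≤ H :=
      inf_le_left.trans (Coprime.commutator_le_of_le_normalizer hn)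
    rw [Coprime.map_inf_centralizer_eq f (normalizer_commutator_ge_right _ _)
      (Coprime.coprime_mono hc le_rfl h1) (Or.inr (isSolvable_of_le hs h1)), map_commutator,
      MonoidHom.map_zpowers]
  have core : ∀ (G : Type u) [Group G] [Finite G] (H : Subgroup G) (x : G), Nat.card H = n →
      x ^ p = 1 → Group.IsSolvable H → (Nat.card (zpowers x)).Coprime (Nat.card H) →
      zpowers x ≤ normalizer (H : Set G) → H ⊔ zpowers x = ⊤ →
      ⁅H, zpowers x⁆ ⊓ centralizer (zpowers x : Set G) ≤ gfix (zpowers x) H := by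
    intro G _ _ H x hn hx hs hc hN htop
    by_contra hcon
    have hsub : ∀ K < H, zpowers x ≤ normalizer (K : Set G) →
        ⁅K, zpowers x⁆ ⊓ centralizer (zpowers x : Set G) ≤ gfix (zpowers x) H := fun K hK hxK =>
      (ih _ (hn ▸ card_lt_card_of_lt hK) G K x rfl hx (isSolvable_of_le hs hK.le)
        (Coprime.coprime_mono hc le_rfl hK.le) hxK).trans (gfix_mono hK.le)
    have hcom : ⁅H, zpowers x⁆ = H := by
      by_contra hne
      have := hsub _ (lt_of_le_of_ne (Coprime.commutator_le_of_le_normalizer hN) hne)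
        (normalizer_commutator_ge_right _ _)
      rw [Coprime.commutator_commutator_eq hN hc (Or.inr hs)] at this
      exact hcon this
    have := Fact.mk hp
    refine Cex.false (p := p) (x := x) (H := H) ⟨orderOf_eq_prime hx ?_, htop, ?_, hs, hc, hcom,
      hsub, fun V _ hb hV => ?_, by rwa [hcom] at hcon⟩ hp hp2
    · rintro rfl
      simp at hcon
    · rw [normal_iff_top_le_normalizer, ← htop]
      exact sup_le le_normalizer hN
    · set π := QuotientGroup.mk' V with hπ
      have h1 := ih _ (by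
          have h2 := card_map_mk_mul V H
          rw [inf_eq_left.2 hV, hn] at h2
          have h3 : 1 < Nat.card V := (one_lt_card_iff_ne_bot V).2 hb
          have h4 : 0 < Nat.card (H.map π) := Nat.card_pos
          rw [← h2]
          exact lt_mul_of_one_lt_left h4 h3) (G ⧸ V) (H.map π) (π x) rfl
        (by rw [← map_pow, hx, map_one]) (isSolvable_map hs π) (by
          rw [← MonoidHom.map_zpowers]
          exact (hc.coprime_dvd_left (card_map_dvd _ π)).coprime_dvd_right (card_map_dvd _ π))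
        (by
          rw [← MonoidHom.map_zpowers]
          exact (map_mono hN).trans (le_normalizer_map π))
      rw [← hmap π hs hc hN, ← MonoidHom.map_zpowers, ← map_gfix π hN hc hs, hcom,
        map_mk_le_map_mk_iff] at h1
      exact h1
  intro G _ _ H x hn hx hs hc hN
  set L := H ⊔ zpowers x with hL
  have hHL : H ≤ L := le_sup_left
  have hxL : x ∈ L := mem_sup_right (mem_zpowers x)
  have hs' := isSolvable_subgroupOf hs L
  have hc' : (Nat.card (zpowers (⟨x, hxL⟩ : L))).Coprime (Nat.card (H.subgroupOf L)) := by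
    rwa [card_subgroupOf_of_le hHL, Nat.card_zpowers, ← Subgroup.orderOf_coe, ← Nat.card_zpowers]
  have hN' : zpowers (⟨x, hxL⟩ : L) ≤ normalizer (H.subgroupOf L : Set L) :=
    zpowers_le.2 (mem_normalizer_subgroupOf (hN (mem_zpowers x)))
  have h1 := map_mono (f := L.subtype) (core L (H.subgroupOf L) ⟨x, hxL⟩
    (by rw [card_subgroupOf_of_le hHL, hn]) (Subtype.ext hx) hs' hc' hN' (by
      rw [← zpowers_subgroupOf, ← subgroupOf_sup hHL le_sup_right, subgroupOf_self]))
  rwa [hmap L.subtype hs' hc' hN', map_gfix L.subtype hN' hc' hs', MonoidHom.map_zpowers,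
    map_subgroupOf_eq_of_le hHL] at h1

end Cfsg.Agent.Flav
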