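import Mathlib
import Cfsg.Agent.Lib.Flav.Rep
import Cfsg.Agent.Lib.Mod.GroupForm

/-! Flavell's bound on the fixed space of an element of prime order. -/

set_option autoImplicit false

namespace Cfsg.Agent.Flav

open Subgroup Module Cfsg.Agent.Mod Cfsg.Agent.Core

universe u

theorem finrank_biSup_le {k V ι : Type*} [Field k] [AddCommGroup V] [Module k V]
    [FiniteDimensional k V] (f : ι → Submodule k V) (s : Finset ι) :
    finrank k ↥(⨆ i ∈ s, f i) ≤ ∑ i ∈ s, finrank k (f i) := by
  classical
  induction s using Finset.induction_on with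
  | empty => simp
  | insert a s ha ih =>
    rw [Finset.iSup_insert, Finset.sum_insert ha]
    exact (Submodule.finrank_add_le_finrank_add_finrank _ _).trans (Nat.add_le_add_left ih _)

section Split

variable {k : Type*} {G : Type u} {V : Type*} [Field k] [Group G] [AddCommGroup V] [Module k V]
  {ρ : Representation k G V}

theorem map_fix_sub {c : Submodule k V} (h : ∀ g, c ≤ c.comap (ρ g)) (H : Subgroup G) :
    (fix (ρ.subrepresentation c h) H).map c.subtype = c ⊓ fix ρ H := by
  ext v
  constructor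
  · rintro ⟨w, hw, rfl⟩
    exact ⟨w.2, mem_fix.2 fun g hg => congrArg Subtype.val (mem_fix.1 hw g hg)⟩
  · rintro ⟨h1, h2⟩
    exact ⟨⟨v, h1⟩, mem_fix.2 fun g hg => Subtype.ext (mem_fix.1 h2 g hg), rfl⟩

variable [Finite G] [FiniteDimensional k V] [Nontrivial V]
  (l : ℕ) [Fact l.Prime] [CharP k l] {p : ℕ} [hp : Fact p.Prime]

include l in
theorem rep_step [IsAlgClosed k] [Group.IsSolvable G] (h5 : 5 ≤ p)
    (ih : ∀ (H : Type u) [Group H] [Finite H], Nat.card H < Nat.card G → Bnd p H)
    (hF : Fpf ρ) {x : G} (hx : orderOf x = p) (hgen : Gen x) :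
    2 * finrank k (fix ρ (zpowers x)) < finrank k V := by
  classical
  have hZ := hF.card_ne_zero l (N := center G) isNilpotent_of_isMulCommutative
  set s := (finite_comps (ρ := ρ) hZ).toFinset with hs
  have hmem : ∀ c, c ∈ s ↔ c ∈ comps ρ (center G) := fun c => Set.Finite.mem_toFinset _
  have hN : finrank k V = ∑ c ∈ s, finrank k c := by
    rw [← finrank_sSup_finset (sSupIndep_comps hZ) s (by rw [hs, Set.Finite.coe_toFinset]), hs,
      Set.Finite.coe_toFinset, sSup_comps hZ, finrank_top]
  have hne : s.Nonempty := by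
    rw [Finset.nonempty_iff_ne_empty]
    intro e
    rw [e, Finset.sum_empty] at hN
    exact finrank_pos.ne' hN
  have h1 : finrank k (fix ρ (zpowers x)) ≤ ∑ c ∈ s, finrank k ↥(c ⊓ fix ρ (zpowers x)) := by
    refine le_trans (Submodule.finrank_mono ?_) (finrank_biSup_le _ s)
    have := (isInv_fix (ρ := ρ) (Q := zpowers x) (center_le_normalizer _)).sSup_inf_comps hZ
    refine this.ge.trans (sSup_le ?_)
    rintro _ ⟨c, hc, rfl⟩
    exact le_iSup₂_of_le c ((hmem c).2 hc) (inf_comm _ _).le
  have h2 : ∀ c ∈ s, 2 * finrank k ↥(c ⊓ fix ρ (zpowers x)) < finrank k c := by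
    intro c hc
    rw [hmem] at hc
    have hi : IsInv ρ ⊤ c := isInv_of_le_centralizer
      (le_centralizer_iff.1 (by rw [coe_top, centralizer_univ])) hc
    have h : ∀ g, c ≤ c.comap (ρ g) := fun g w hw => hi g trivial w hw
    have : Nontrivial c := Submodule.nontrivial_iff_ne_bot.2 (ne_bot_of_mem_comps hc)
    have h3 := case_scalar (ρ := ρ.subrepresentation c h) l h5 ih (fun N hN hb => by
      have := map_fix_sub h N
      rw [hF N hN hb, inf_bot_eq] at this
      exact Submodule.map_injective_of_injective c.injective_subtype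
        (this.trans (Submodule.map_bot _).symm)) hx hgen (by
      intro z hz
      obtain ⟨t, ht⟩ := le_scal_of_mem_comps le_rfl (center_le_centralizer _) hc hz
      exact ⟨t, fun w _ => Subtype.ext (ht w w.2)⟩)
    rwa [← map_fix_sub h, Submodule.finrank_map_subtype_eq]
  have h3 := Finset.sum_lt_sum_of_nonempty hne h2
  rw [← Finset.mul_sum] at h3
  omega

include l in
theorem rep_step' [IsAlgClosed k] [Group.IsSolvable G] (h5 : 5 ≤ p)
    (ih : ∀ (H : Type u) [Group H] [Finite H], Nat.card H < Nat.card G → Bnd p H)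
    (hF : ∀ N : Subgroup G, N.Normal → ¬ N ≤ ρ.ker → fix ρ N = ⊥) (hne : ρ.ker ≠ ⊤) {x : G}
    (hx : x ^ p = 1) (hgen : Gen x) : 2 * finrank k (fix ρ (zpowers x)) < finrank k V := by
  have hs := QuotientGroup.mk'_surjective ρ.ker
  have hfix : ∀ H : Subgroup G, fix (kerRep ρ) (H.map (QuotientGroup.mk' ρ.ker)) = fix ρ H := by
    intro H
    ext v
    simp only [mem_fix]
    exact ⟨fun h g hg => h _ ⟨g, hg, rfl⟩, fun h _ ⟨g, hg, e⟩ => e ▸ h g hg⟩
  have h1 := rep_step (ρ := kerRep ρ) l h5 (fun H _ _ hH => ih H (hH.trans_le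
    (Nat.card_le_card_of_surjective _ hs))) (fun N hN hb => by
      rw [← map_comap_eq_self_of_surjective hs N, hfix]
      refine hF _ (hN.comap _) fun h => hb ?_
      rw [← map_comap_eq_self_of_surjective hs N, Subgroup.map_eq_bot_iff, QuotientGroup.ker_mk']
      exact h) (x := QuotientGroup.mk' ρ.ker x) (by
      refine orderOf_eq_prime (by rw [← map_pow, hx, map_one]) fun h => hne ?_
      exact hgen _ inferInstance ((QuotientGroup.eq_one_iff x).1 h)) (hgen.map _ hs)
  rwa [← MonoidHom.map_zpowers, hfix] at h1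

end Split

/-- Flavell's bound, group form. -/
theorem bnd {p : ℕ} [Fact p.Prime] (h5 : 5 ≤ p) (G : Type u) [Group G] [Finite G] : Bnd p G := by
  refine induction_on_card (P := fun G _ _ => Bnd p G) ?_ G
  intro G _ _ ih hs x hx hgen E hE hEZ
  have := hE.normal
  obtain ⟨q, hq, hqE⟩ := hE.exists_isElementaryAbelian inferInstance
  have := Fact.mk hq
  obtain ⟨W, _, _, _, ρ, ι, hl⟩ := exists_isLin (AlgebraicClosure (ZMod q)) hqE
  have : Nontrivial W := hl.nontrivial_iff.2 hE.ne_bot
  have h1 := rep_step' (ρ := ρ) q h5 ih (fun N _ hN => by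
    rw [hl.fix_eq_bot_iff]
    refine (hE.inf_eq_bot_or_le _).resolve_right fun h => hN ?_
    rw [hl.ker_eq]
    exact le_centralizer_iff.1 h) (fun e => hEZ (by
      rw [hl.ker_eq] at e
      rw [← centralizer_univ, ← coe_top]
      exact le_centralizer_iff.1 e.ge)) hx hgen
  rw [hl.card_fix, hl.card_eq, ← pow_mul, mul_comm]
  exact Nat.pow_lt_pow_right hq.one_lt h1

/-- Flavell's bound, module form. -/
theorem rep_bound {k : Type*} {G : Type u} {V : Type*} [Field k] [Group G] [AddCommGroup V]
    [Module k V] {ρ : Representation k G V} [Finite G] [FiniteDimensional k V] [Nontrivial V]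
    (l : ℕ) [Fact l.Prime] [CharP k l] {p : ℕ} [Fact p.Prime] [Group.IsSolvable G] (h5 : 5 ≤ p)
    (hF : ∀ N : Subgroup G, N.Normal → ¬ N ≤ ρ.ker → fix ρ N = ⊥) (hne : ρ.ker ≠ ⊤) {x : G}
    (hx : x ^ p = 1) (hgen : Gen x) : 2 * finrank k (fix ρ (zpowers x)) < finrank k V := by
  have : Nontrivial (TensorProduct k (AlgebraicClosure k) V) := by
    rw [← finrank_pos_iff (R := AlgebraicClosure k), Module.finrank_baseChange]
    exact finrank_pos
  have h1 := rep_step' (ρ := bc (AlgebraicClosure k) ρ) l h5 (fun H _ _ _ => bnd h5 H)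
    (fun N hN h => by
      rw [ker_bc] at h
      rw [fix_bc, hF N hN h, Submodule.baseChange_bot]) (by rwa [ker_bc]) hx hgen
  rwa [finrank_fix_bc, Module.finrank_baseChange] at h1

end Cfsg.Agent.Flav
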