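import Mathlib
import Cfsg.Agent.Lib.Flav.Main
import Cfsg.Agent.Lib.Flav.TwoGen
import Cfsg.Agent.Lib.Core.Local

/-! Maximal solvable subgroups generated by two conjugates of a subgroup of prime order. -/

set_option autoImplicit false

namespace Cfsg.Agent.Flav

open Subgroup Cfsg.Agent.Core Cfsg.Agent.Mod
open scoped commutatorElement

variable {G : Type*} [Group G] [Finite G]

theorem pCoreOf_le_centralizer {p : ℕ} [Fact p.Prime] (h5 : 5 ≤ p) {x a : G} (hx : x ^ p = 1)
    {A : Subgroup G} (hs : Group.IsSolvable A) (ha : a ∈ A)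
    (hA : A = zpowers x ⊔ zpowers (a * x * a⁻¹))
    (hmax : ∀ b : G, A ≤ zpowers x ⊔ zpowers (b * x * b⁻¹) → b ∈ zpowers x ⊔ zpowers (b * x * b⁻¹) →
      Group.IsSolvable ↥(zpowers x ⊔ zpowers (b * x * b⁻¹)) →
      zpowers x ⊔ zpowers (b * x * b⁻¹) = A)
    {q r : ℕ} [Fact q.Prime] [Fact r.Prime] (hqr : q ≠ r) (V : Subgroup G) :
    IsPGroup r V → A ≤ normalizer (V : Set G) → pCoreOf q A ≤ centralizer (V : Set G) := by
  induction V using subgroup_induction_lt with | _ V ih => ?_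
  intro hV hAV
  set Q := pCoreOf q A with hQ
  have hQA : Q ≤ A := pCoreOf_le A
  have hAQ : A ≤ normalizer (Q : Set G) := le_normalizer_pCoreOf A
  have hQq : IsPGroup q Q := isPGroup_pCoreOf A
  have hxA : x ∈ A := hA ▸ mem_sup_left (mem_zpowers x)
  have hcop : ∀ U : Subgroup G, U ≤ V → (Nat.card Q).Coprime (Nat.card U) := fun U hU =>
    coprime_card_of_isPGroup hqr hQq (hV.to_le hU)
  have hVQ : ⁅V, Q⁆ ≤ V := Coprime.commutator_le_of_le_normalizer (hQA.trans hAV)
  rcases hVQ.lt_or_eq with hlt | heq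
  · exact Coprime.le_centralizer_of_commutator_le le_rfl
      (ih _ hlt (hV.to_le hVQ) (le_normalizer_commutator hAV hAQ)) (hcop _ hVQ)
  by_cases hVb : V = ⊥
  · rw [hVb]; intro g _ h hh; rw [mem_bot.1 hh]; simp
  exfalso
  have hnil : Group.IsNilpotent V := hV.isNilpotent
  set Φ := (frattini V).map V.subtype with hΦ
  have hΦV : Φ ≤ V := map_subtype_le _
  have hfr : ∀ B : Subgroup G, V ≤ B ⊔ Φ → B ≤ normalizer (Φ : Set G) → V ≤ B := by
    intro B hB hn
    have h1 : (B ⊓ V) ⊔ Φ = V := by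
      rw [← sup_inf_eq_inf_sup_of_le_normalizer hn hΦV, inf_eq_right.2 hB]
    have h2 : (B ⊓ V).subgroupOf V ⊔ frattini V = ⊤ := by
      apply map_injective V.subtype_injective
      rw [Subgroup.map_sup, subgroupOf_map_subtype, inf_assoc, inf_idem, h1,
        ← MonoidHom.range_eq_map, range_subtype]
    have h3 := eq_top_of_sup_eq_top_of_le_frattini le_rfl h2
    rw [subgroupOf_eq_top] at h3
    exact h3.trans inf_le_left
  set L := A ⊔ V with hL
  have hLV : L ≤ normalizer (V : Set G) := sup_le hAV le_normalizer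
  have hLΦ : L ≤ normalizer (Φ : Set G) :=
    hLV.trans (normalizer_le_normalizer_map_of_characteristic V _)
  have hAL : A ≤ L := le_sup_left
  have hVL : V ≤ L := le_sup_right
  have := Core.normal_subgroupOf_of_le_normalizer hLΦ
  have hLs : Group.IsSolvable L := isSolvable_sup_of_le_normalizer hAV hs inferInstance
  set π := QuotientGroup.mk' (Φ.subgroupOf L) with hπ
  have hπs : Function.Surjective π := QuotientGroup.mk'_surjective _
  have hπ1 : ∀ g : L, π g = 1 ↔ (g : G) ∈ Φ := fun g => QuotientGroup.eq_one_iff g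
  have hEn : (im π V).Normal := normal_im π hπs hLV
  have hEc : IsMulCommutative (im π V) := by
    rw [← le_centralizer_iff_isMulCommutative, ← commutator_eq_bot_iff_le_centralizer,
      ← im_commutator π hVL hVL, eq_bot_iff]
    rintro _ ⟨g, hg, rfl⟩
    refine (hπ1 g).2 ?_
    have : ⁅V, V⁆ ≤ Φ := by
      rw [hΦ, ← map_subtype_commutator]
      exact map_mono commutator_le_frattini_of_isNilpotent
    exact this hg
  have hcop' : (Nat.card (im π Q)).Coprime (Nat.card (im π V)) :=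
    coprime_card_of_isPGroup hqr (isPGroup_im π hQq) (isPGroup_im π hV)
  have hEQ : im π V ⊓ centralizer (im π Q : Set (L ⧸ Φ.subgroupOf L)) = ⊥ := by
    have := Coprime.centralizer_inf_commutator_eq_bot (im_le_normalizer π (hQA.trans hAV)) hcop' hEc
    rwa [← im_commutator π hVL (hQA.trans hAL), heq, inf_right_comm, inf_idem] at this
  have hE : IsMinNormal (im π V) := by
    refine ⟨hEn, fun h => hVb (le_bot_iff.1 (hfr ⊥ ?_ bot_le)), fun K hK hKE => ?_⟩
    · intro v hv
      refine mem_sup_right ((hπ1 ⟨v, hVL hv⟩).1 ?_)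
      rw [← mem_bot, ← h]
      exact mem_im π hv
    · rcases (inf_le_right : pre π K ⊓ V ≤ V).lt_or_eq with hlt | he
      · left
        rw [eq_bot_iff, ← hEQ]
        have h1 := le_centralizer_iff.1 (ih _ hlt (hV.to_le hlt.le)
          (le_normalizer_inf (hAL.trans (le_normalizer_pre π K)) hAV))
        intro k hk
        obtain ⟨v, hv, rfl⟩ := hKE hk
        exact ⟨hKE hk, mem_centralizer_im π (h1 ⟨(mem_pre π v.2).2 hk, hv⟩)⟩
      · exact Or.inr (le_antisymm hKE ((le_pre π hVL).1 (inf_eq_right.1 he)))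
  have hEQ' : ¬ im π V ≤ centralizer (im π Q : Set (L ⧸ Φ.subgroupOf L)) := fun h =>
    hE.ne_bot (by rw [← hEQ, inf_eq_left.2 h])
  have himA : im π A = zpowers (π ⟨x, hAL hxA⟩) ⊔
      zpowers (π ⟨a, hAL ha⟩ * π ⟨x, hAL hxA⟩ * (π ⟨a, hAL ha⟩)⁻¹) := by
    have hy : a * x * a⁻¹ ∈ A := A.mul_mem (A.mul_mem ha hxA) (A.inv_mem ha)
    conv_lhs => rw [hA]
    rw [im_sup π (zpowers_le.2 (hAL hxA)) (zpowers_le.2 (hAL hy)), im_zpowers π (hAL hxA),
      im_zpowers π (hAL hy), ← map_inv, ← map_mul, ← map_mul]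
    rfl
  have htop : im π A ⊔ im π V = ⊤ := by
    rw [← im_sup π hAL hVL, im, ← hL, subgroupOf_self, map_top_of_surjective π hπs]
  have hgen : Gen (π ⟨x, hAL hxA⟩) := by
    intro N hN hxN
    have h1 : im π A ≤ N := by
      rw [himA]
      exact sup_le (zpowers_le.2 hxN) (zpowers_le.2 (hN.conj_mem _ hxN _))
    have h2 := (hE.le_centralizer_or_le N).resolve_left fun h =>
      hEQ' (h.trans (centralizer_le ((im_mono π hQA).trans h1)))
    rw [eq_top_iff, ← htop]
    exact sup_le h1 h2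
  have hb := bnd h5 _ inferInstance (π ⟨x, hAL hxA⟩)
    (by rw [← map_pow, show (⟨x, hAL hxA⟩ : L) ^ p = 1 from Subtype.ext hx, map_one]) hgen _ hE
    fun h => hEQ' (h.trans (center_le_centralizer _))
  obtain ⟨_, ⟨v, hv, rfl⟩, hv'⟩ := two_gen hE hEc hcop'.symm hEQ
    (mem_normalizer_im π (x := ⟨x, hAL hxA⟩) (hAQ hxA))
    (mem_normalizer_im π (x := ⟨a, hAL ha⟩) (hAQ ha)) (by rw [← himA, htop]) hb
  have hvV : (v : G) ∈ V := hv
  set B := zpowers x ⊔ zpowers ((v * a) * x * (v * a)⁻¹) with hB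
  have hyL : (v * a) * x * (v * a)⁻¹ ∈ L :=
    L.mul_mem (L.mul_mem (L.mul_mem v.2 (hAL ha)) (hAL hxA)) (L.inv_mem (L.mul_mem v.2 (hAL ha)))
  have hBL : B ≤ L := sup_le (zpowers_le.2 (hAL hxA)) (zpowers_le.2 hyL)
  have himB : im π B = ⊤ := by
    rw [hB, im_sup π (zpowers_le.2 (hAL hxA)) (zpowers_le.2 hyL), im_zpowers π (hAL hxA),
      im_zpowers π hyL, ← hv']
    simp only [← map_inv, ← map_mul]
    congr 3
    ext
    simp [mul_assoc]
  have hLB : L ≤ B ⊔ Φ := by
    intro g hg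
    obtain ⟨b, hb, e⟩ : π ⟨g, hg⟩ ∈ im π B := himB ▸ mem_top _
    have h1 : (b : G)⁻¹ * g ∈ Φ := (hπ1 (b⁻¹ * ⟨g, hg⟩)).1 (by rw [map_mul, map_inv, e]; simp)
    simpa using mul_mem (mem_sup_left (T := Φ) (show (b : G) ∈ B from hb)) (mem_sup_right h1)
  have hVB := hfr B (hVL.trans hLB) (hBL.trans hLΦ)
  have hLB' : L ≤ B := hLB.trans (sup_le le_rfl (hΦV.trans hVB))
  have hBA : B = A := hmax _ (hAL.trans hLB') (hLB' (L.mul_mem v.2 (hAL ha)))
    (isSolvable_of_le hLs hBL)
  have h1 := le_centralizer_of_coprime_of_le_normalizer (hQA.trans hAV)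
    ((hVB.trans hBA.le).trans hAQ) (hcop V le_rfl)
  rw [← Coprime.commutator_eq_bot_iff_le_centralizer', heq] at h1
  exact hVb h1

theorem isNilpotent_fittingOf_sup {A V : Subgroup G} (hV : Group.IsNilpotent V)
    (hAV : A ≤ normalizer (V : Set G))
    (h : ∀ (q r : ℕ) (_ : Fact q.Prime) (_ : Fact r.Prime), q ≠ r →
      pCoreOf q A ≤ centralizer (pCoreOf r V : Set G)) :
    Group.IsNilpotent ↥(fittingOf A ⊔ V) := by
  have hVF : V ≤ fittingOf V := le_fittingOf le_rfl le_normalizer hV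
  have key : ∀ (r : ℕ) (_ : Fact r.Prime), pCoreOf r A ⊔ pCoreOf r V ≤
      fittingOf (fittingOf A ⊔ V) := by
    intro r _
    have h1 : A ≤ normalizer (pCoreOf r V : Set G) := hAV.trans (normalizer_le_normalizer_pCoreOf V)
    refine le_fittingOf (sup_le_sup (pCoreOf_le_fittingOf r A) (pCoreOf_le V)) (sup_le ?_ ?_) ?_
    · exact (fittingOf_le A).trans (le_normalizer_sup (le_normalizer_pCoreOf A) h1)
    · refine hVF.trans (fittingOf_le_of_forall_pCoreOf_le fun s _ => ?_)
      by_cases hs : s = r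
      · subst hs
        exact le_sup_right.trans le_normalizer
      · exact le_normalizer_sup
          ((le_centralizer_iff.1 (h r s ‹_› ‹_› (Ne.symm hs))).trans (centralizer_le_normalizer _))
          ((pCoreOf_le V).trans (le_normalizer_pCoreOf V))
    · exact (IsPGroup.to_sup_of_normal_right' (isPGroup_pCoreOf A) (isPGroup_pCoreOf V)
        ((pCoreOf_le A).trans h1)).isNilpotent
  refine isNilpotent_of_le (isNilpotent_fittingOf (fittingOf A ⊔ V)) (sup_le ?_ (hVF.trans ?_))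
  · exact fittingOf_le_of_forall_pCoreOf_le fun r hr => le_sup_left.trans (key r hr)
  · exact fittingOf_le_of_forall_pCoreOf_le fun r hr => le_sup_right.trans (key r hr)

end Cfsg.Agent.Flav
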